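import Mathlib
import Cfsg.Agent.H14.PGL2
import Cfsg.Agent.S2303

set_option autoImplicit false

/-! Sylow 2-subgroups of `PGL₂(q)`, `q + 1` a power of two, intersect non-trivially. -/

namespace Cfsg.Agent.H14

open Matrix
open scoped Pointwise

variable {F : Type*} [Field F]

local notation "GL2" => Matrix.GeneralLinearGroup (Fin 2) F
local notation "M2" => Matrix (Fin 2) (Fin 2) F
local notation "PG2" => Matrix.GeneralLinearGroup (Fin 2) F ⧸ Subgroup.center (Matrix.GeneralLinearGroup (Fin 2) F)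

theorem anticomm_of_traceless (s t : M2) (hs : s 1 1 = - s 0 0) (ht : t 1 1 = - t 0 0)
    (h : 2 * s 0 0 * t 0 0 + s 0 1 * t 1 0 + s 1 0 * t 0 1 = 0) : s * t = -(t * s) := by
  ext i j
  fin_cases i <;> fin_cases j <;>
    simp only [Matrix.mul_apply, Fin.sum_univ_two, Matrix.neg_apply, Fin.zero_eta, Fin.isValue, Fin.mk_one, hs, ht]
  · linear_combination h
  · ring
  · ring
  · linear_combination h

theorem isSquare_of_isotropic (s t : M2) (hs : s 1 1 = - s 0 0) (hs0 : s ≠ 0)
    (hdet : s 0 0 ^ 2 + s 0 1 * s 1 0 = 0)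
    (h : 2 * s 0 0 * t 0 0 + s 0 1 * t 1 0 + s 1 0 * t 0 1 = 0) :
    IsSquare (t 0 0 ^ 2 + t 0 1 * t 1 0) := by
  by_cases hb : s 0 1 = 0
  · have ha : s 0 0 = 0 := by
      rw [hb, zero_mul, add_zero] at hdet
      exact pow_eq_zero_iff (two_ne_zero) |>.mp hdet
    have hc : s 1 0 ≠ 0 := by
      intro hc
      apply hs0
      ext i j
      fin_cases i <;> fin_cases j <;> simp [ha, hb, hc, hs]
    rw [ha, hb] at h
    have : t 0 1 = 0 := by
      have : s 1 0 * t 0 1 = 0 := by linear_combination h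
      exact (mul_eq_zero.mp this).resolve_left hc
    refine ⟨t 0 0, ?_⟩
    rw [this]; ring
  · refine ⟨t 0 0 - s 0 0 * t 0 1 / s 0 1, ?_⟩
    field_simp
    linear_combination (t 0 1 * s 0 1) * h - t 0 1 ^ 2 * hdet

theorem exists_common_perp (t t' : M2) : ∃ s : M2, s ≠ 0 ∧ s 1 1 = - s 0 0 ∧
    2 * s 0 0 * t 0 0 + s 0 1 * t 1 0 + s 1 0 * t 0 1 = 0 ∧
    2 * s 0 0 * t' 0 0 + s 0 1 * t' 1 0 + s 1 0 * t' 0 1 = 0 := by
  set M : Matrix (Fin 3) (Fin 3) F := !![2 * t 0 0, t 1 0, t 0 1; 2 * t' 0 0, t' 1 0, t' 0 1; 0, 0, 0] with hM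
  have hdet : M.det = 0 := Matrix.det_eq_zero_of_row_eq_zero 2 (by intro j; fin_cases j <;> simp [hM])
  obtain ⟨v, hv0, hv⟩ := Matrix.exists_mulVec_eq_zero_iff.mpr hdet
  refine ⟨!![v 0, v 1; v 2, - v 0], ?_, by simp, ?_, ?_⟩
  · intro h
    apply hv0
    ext i
    fin_cases i
    · simpa using congrFun (congrFun h 0) 0
    · simpa using congrFun (congrFun h 0) 1
    · simpa using congrFun (congrFun h 1) 0
  · have := congrFun hv 0
    simp [hM, Matrix.mulVec, dotProduct, Fin.sum_univ_three] at this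
    simp
    linear_combination this
  · have := congrFun hv 1
    simp [hM, Matrix.mulVec, dotProduct, Fin.sum_univ_three] at this
    simp
    linear_combination this

variable [Fintype F]

local notation "q" => Fintype.card F

theorem card_centralizer_traceless (h2 : (2 : F) ≠ 0) (t : GL2) (ht : (t : M2) 1 1 = - (t : M2) 0 0) :
    (IsSquare ((t : M2) 0 0 ^ 2 + (t : M2) 0 1 * (t : M2) 1 0) →
      Nat.card (Subgroup.centralizer ({t} : Set GL2)) = (q - 1) ^ 2) ∧
    (¬ IsSquare ((t : M2) 0 0 ^ 2 + (t : M2) 0 1 * (t : M2) 1 0) →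
      Nat.card (Subgroup.centralizer ({t} : Set GL2)) = q ^ 2 - 1) := by
  have hdet0 := gl2_det_ne_zero t
  have hns : ¬ IsScal (t : M2) := by
    rintro ⟨h01, h10, h00⟩
    rw [ht] at h00
    have h0 : (t : M2) 0 0 = 0 := by
      have : 2 * (t : M2) 0 0 = 0 := by linear_combination h00
      exact (mul_eq_zero.mp this).resolve_left h2
    apply hdet0
    rw [h0, h01]; ring
  constructor
  · rintro ⟨a, ha⟩
    have ha0 : a ≠ 0 := by
      rintro rfl
      apply hdet0
      rw [ht]; linear_combination -ha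
    have hna0 : -a ≠ 0 := neg_ne_zero.mpr ha0
    set d : GL2 := gb (Units.mk0 a ha0) (Units.mk0 (-a) hna0) 0 with hd
    have hd' : (d : M2) = !![a, 0; 0, -a] := by rw [hd, coe_gb]; simp
    have hdns : ¬ IsScal (d : M2) := by
      rintro ⟨-, -, h00⟩
      rw [hd'] at h00
      simp at h00
      apply ha0
      have : 2 * a = 0 := by linear_combination h00
      exact (mul_eq_zero.mp this).resolve_left h2
    have hconj : IsConj d t := by
      apply gl2_isConj_of_trace_det hdns hns
      · rw [hd', Matrix.trace_fin_two, Matrix.trace_fin_two, ht]; simp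
      · rw [hd', Matrix.det_fin_two, Matrix.det_fin_two, ht]; simp
        linear_combination ha
    rw [card_centralizer_of_isConj hconj]
    apply (Cfsg.Agent.S2303.result d).1
    · rw [hd']; simp
    · rw [hd']; simp
    · rw [hd']; simp
      intro h
      apply ha0
      have : 2 * a = 0 := by linear_combination h
      exact (mul_eq_zero.mp this).resolve_left h2
  · intro hsq
    apply (Cfsg.Agent.S2303.result t).2
    intro c v hv hcv
    apply hsq
    refine ⟨c, ?_⟩
    have e0 := congrFun hcv 0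
    have e1 := congrFun hcv 1
    simp only [Matrix.mulVec, dotProduct, Fin.sum_univ_two, Pi.smul_apply, smul_eq_mul, ht] at e0 e1
    have hv' : v 0 ≠ 0 ∨ v 1 ≠ 0 := by
      by_contra hcon
      push Not at hcon
      apply hv
      ext i; fin_cases i
      · exact hcon.1
      · exact hcon.2
    rcases hv' with h | h
    · have : ((t : M2) 0 0 ^ 2 + (t : M2) 0 1 * (t : M2) 1 0 - c * c) * v 0 = 0 := by
        linear_combination ((t : M2) 0 0 + c) * e0 + (t : M2) 0 1 * e1
      have := (mul_eq_zero.mp this).resolve_right h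
      linear_combination this
    · have : ((t : M2) 0 0 ^ 2 + (t : M2) 0 1 * (t : M2) 1 0 - c * c) * v 1 = 0 := by
        linear_combination (t : M2) 1 0 * e0 + (c - (t : M2) 0 0) * e1
      have := (mul_eq_zero.mp this).resolve_right h
      linear_combination this

theorem exists_central_involution {G : Type*} [Group G] [Finite G] (H : Sylow 2 G)
    (hH : 1 < Nat.card H) : ∃ z ∈ (H : Subgroup G), orderOf z = 2 ∧ ∀ h ∈ (H : Subgroup G), h * z = z * h := by
  haveI : Fact (Nat.Prime 2) := ⟨Nat.prime_two⟩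
  haveI : Nontrivial (H : Subgroup G) := (Finite.one_lt_card_iff_nontrivial).mp hH
  have hp : IsPGroup 2 (H : Subgroup G) := H.2
  haveI := hp.center_nontrivial
  have hpc : IsPGroup 2 (Subgroup.center (H : Subgroup G)) := hp.to_subgroup _
  obtain ⟨j, hj⟩ := (IsPGroup.iff_card).mp hpc
  have hj0 : j ≠ 0 := by
    rintro rfl
    rw [pow_zero] at hj
    have := (Finite.one_lt_card_iff_nontrivial (α := Subgroup.center (H : Subgroup G))).mpr inferInstance
    omega
  have hdvd : 2 ∣ Nat.card (Subgroup.center (H : Subgroup G)) := by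
    rw [hj]; exact dvd_pow_self 2 hj0
  obtain ⟨z, hz⟩ := exists_prime_orderOf_dvd_card' 2 hdvd
  refine ⟨z.1.1, z.1.2, ?_, ?_⟩
  · rw [Subgroup.orderOf_coe, Subgroup.orderOf_coe]; exact hz
  · intro h hh
    have := Subgroup.mem_center_iff.mp z.2 ⟨h, hh⟩
    exact congrArg Subtype.val this

theorem pgl2_sylow2_inter {k : ℕ} (hk : q + 1 = 2 ^ k) (hq : 7 ≤ q) (H : Sylow 2 PG2) (x : PG2) :
    (H : Subgroup PG2) ⊓ MulAut.conj x • (H : Subgroup PG2) ≠ ⊥ := by
  classical
  have hk1 : 1 ≤ k := by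
    rcases Nat.eq_zero_or_pos k with rfl | h
    · simp at hk
    · exact h
  have hodd : q % 2 = 1 := by
    obtain ⟨j, rfl⟩ : ∃ j, k = j + 1 := ⟨k - 1, by omega⟩
    rw [pow_succ] at hk; omega
  have h2 : (2 : F) ≠ 0 := odd_two_ne_zero hodd
  -- lower bound for the order of H
  have hHcard : 2 * (q + 1) ≤ Nat.card H := by
    rw [H.card_eq_multiplicity, hk, ← pow_succ']
    apply Nat.pow_le_pow_right (by norm_num)
    have hne : Nat.card PG2 ≠ 0 := Nat.card_pos.ne'
    rw [← Nat.Prime.pow_dvd_iff_le_factorization Nat.prime_two hne, card_pg2, hk, pow_succ, mul_comm (2 ^ k) 2]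
    apply Nat.mul_dvd_mul _ (dvd_refl _)
    apply Dvd.dvd.mul_left
    omega
  obtain ⟨z, hzH, hz2, hzc⟩ := exists_central_involution H (by omega)
  obtain ⟨t, rfl⟩ := QuotientGroup.mk_surjective z
  change orderOf (pg t) = 2 at hz2
  have hns : ¬ IsScal (t : M2) := by
    intro h
    rw [← pg_eq_one_iff] at h
    rw [h, orderOf_one] at hz2; omega
  have hsq : IsScal ((t : M2) * (t : M2)) := by
    have : pg (t * t) = 1 := by
      have h5 := pow_orderOf_eq_one (pg t)
      rw [hz2, sq] at h5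
      exact h5
    rw [pg_eq_one_iff] at this
    simpa using this
  have htr := trace_zero_of_isScal_sq _ hns hsq
  have ht11 : (t : M2) 1 1 = - (t : M2) 0 0 := by
    rw [Matrix.trace_fin_two] at htr; linear_combination htr
  have hle : (H : Subgroup PG2) ≤ Subgroup.centralizer ({pg t} : Set PG2) := by
    intro h hh
    rw [Subgroup.mem_centralizer_singleton_iff]
    exact hzc h hh
  have hbound := card_centralizer_pg_le h2 t
  have hcle := Subgroup.card_le_of_le hle
  have hq1 : 0 < q - 1 := by omega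
  have hcases := card_centralizer_traceless h2 t ht11
  have hnsq : ¬ IsSquare ((t : M2) 0 0 ^ 2 + (t : M2) 0 1 * (t : M2) 1 0) := by
    intro h
    rw [hcases.1 h, sq, ← mul_assoc] at hbound
    have := Nat.le_of_mul_le_mul_right hbound hq1
    have h3 : Nat.card (H : Subgroup PG2) = Nat.card H := rfl
    omega
  have hHeq : (H : Subgroup PG2) = Subgroup.centralizer ({pg t} : Set PG2) := by
    apply Subgroup.eq_of_le_of_card_ge hle
    rw [hcases.2 hnsq] at hbound
    have e : q ^ 2 - 1 = (q + 1) * (q - 1) := by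
      obtain ⟨m, hm⟩ : ∃ m, q = m + 1 := ⟨q - 1, by omega⟩
      rw [hm, Nat.add_sub_cancel]
      have : (m + 1) ^ 2 = (m + 1 + 1) * m + 1 := by ring
      rw [this, Nat.add_sub_cancel]
    rw [e, ← mul_assoc] at hbound
    have := Nat.le_of_mul_le_mul_right hbound hq1
    exact le_trans this hHcard
  obtain ⟨g, rfl⟩ := QuotientGroup.mk_surjective x
  have htr' : ((g * t * g⁻¹ : GL2) : M2).trace = 0 := by
    rw [← htr]
    exact (gl_trace_eq_of_isConj (isConj_iff.mpr ⟨g, rfl⟩)).symm
  have ht11' : ((g * t * g⁻¹ : GL2) : M2) 1 1 = - ((g * t * g⁻¹ : GL2) : M2) 0 0 := by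
    rw [Matrix.trace_fin_two] at htr'; linear_combination htr'
  obtain ⟨s, hs0, hs11, hs1, hs2⟩ := exists_common_perp (t : M2) ((g * t * g⁻¹ : GL2) : M2)
  have hsdet : s.det ≠ 0 := by
    intro hd
    apply hnsq
    apply isSquare_of_isotropic s (t : M2) hs11 hs0 _ hs1
    rw [Matrix.det_fin_two, hs11] at hd
    linear_combination -hd
  set S : GL2 := Matrix.GeneralLinearGroup.mkOfDetNeZero s hsdet with hS
  have hSs : (S : M2) = s := rfl
  have hSns : ¬ IsScal (S : M2) := by
    rw [hSs]
    rintro ⟨h01, h10, h00⟩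
    rw [hs11] at h00
    have h0 : s 0 0 = 0 := by
      have : 2 * s 0 0 = 0 := by linear_combination h00
      exact (mul_eq_zero.mp this).resolve_left h2
    apply hs0
    ext i j
    fin_cases i <;> fin_cases j <;> simp [h0, h01, h10, hs11]
  have hc1 : pg S * pg t = pg t * pg S :=
    (pg_commute_iff h2 S t).mpr (Or.inr (anticomm_of_traceless s _ hs11 ht11 hs1))
  have hc2 : pg S * pg (g * t * g⁻¹) = pg (g * t * g⁻¹) * pg S :=
    (pg_commute_iff h2 S _).mpr (Or.inr (anticomm_of_traceless s _ hs11 ht11' hs2))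
  intro hbot
  have hmem : pg S ∈ (H : Subgroup PG2) ⊓ MulAut.conj (pg g) • (H : Subgroup PG2) := by
    rw [Subgroup.mem_inf]
    refine ⟨?_, ?_⟩
    · rw [hHeq]
      exact Subgroup.mem_centralizer_singleton_iff.mpr hc1
    · rw [Subgroup.mem_pointwise_smul_iff_inv_smul_mem, hHeq,
        Subgroup.mem_centralizer_singleton_iff]
      have e : (MulAut.conj (pg g))⁻¹ • pg S = (pg g)⁻¹ * pg S * pg g := by
        rw [← map_inv, MulAut.smul_def, MulAut.conj_apply, inv_inv]
      rw [e]
      rw [pg_mul, pg_mul, pg_inv] at hc2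
      calc (pg g)⁻¹ * pg S * pg g * pg t = (pg g)⁻¹ * (pg S * (pg g * pg t * (pg g)⁻¹)) * pg g := by group
        _ = (pg g)⁻¹ * ((pg g * pg t * (pg g)⁻¹) * pg S) * pg g := by rw [hc2]
        _ = pg t * ((pg g)⁻¹ * pg S * pg g) := by group
  rw [hbot, Subgroup.mem_bot, pg_eq_one_iff] at hmem
  exact hSns hmem

end Cfsg.Agent.H14
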