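import Mathlib
import Cfsg.Agent.Lib.Helper18.Herm5
import Cfsg.Agent.Lib.Helper18.Quat
import Cfsg.Agent.S0280

/-! # `PSU₃(2) = 3² : Q₈` -/

set_option autoImplicit false
set_option linter.unusedSimpArgs false
set_option linter.unusedVariables false

namespace Cfsg.Agent.H14

open Matrix

section abstractPart

theorem quat_image {K P : Type*} [Group K] [Group P] (π : K →* P)
    (hker : ∀ n, π n = 1 → n ^ 3 = 1) (m m' : K)
    (hm4 : m ^ 4 = 1) (hm2 : m ^ 2 ≠ 1) (hsq : m' ^ 2 = m ^ 2) (hconj : m' * m * m'⁻¹ = m⁻¹) :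
    orderOf (π m) = 4 ∧ π m' ∉ Subgroup.zpowers (π m) ∧ (π m') ^ 2 = (π m) ^ 2 ∧
      π m' * π m * (π m')⁻¹ = (π m)⁻¹ := by
  have h2 : (π m) ^ 2 ≠ 1 := by
    intro h
    rw [← map_pow] at h
    have h3 := hker _ h
    apply hm2
    calc m ^ 2 = (m ^ 2) ^ 3 * (m ^ 4)⁻¹ := by
          rw [← pow_mul, eq_mul_inv_iff_mul_eq, ← pow_add]
      _ = 1 := by rw [h3, hm4]; simp
  have hc : π m' * π m * (π m')⁻¹ = (π m)⁻¹ := by
    rw [← map_inv, ← map_mul, ← map_mul, hconj, map_inv]
  refine ⟨?_, ?_, ?_, hc⟩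
  · have := orderOf_eq_prime_pow (x := π m) (p := 2) (n := 1) (by simpa using h2)
      (by norm_num; rw [← map_pow, hm4, map_one])
    simpa using this
  · rintro ⟨k, hk⟩
    apply h2
    have hcomm : π m' * π m = π m * π m' := by
      rw [← hk]
      simp only
      rw [← _root_.zpow_add_one, ← _root_.zpow_one_add, add_comm]
    rw [hcomm, mul_inv_cancel_right] at hc
    rw [pow_two]
    nth_rewrite 1 [hc]
    simp
  · rw [← map_pow, ← map_pow, hsq]

theorem mem_normalizer_closure {G : Type*} [Group G] (s : Set G) (g : G) (n : ℕ)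
    (hg : g ^ (n + 1) = 1) (h : ∀ x ∈ s, g * x * g⁻¹ ∈ Subgroup.closure s) :
    g ∈ Subgroup.normalizer ((Subgroup.closure s : Subgroup G) : Set G) := by
  have h1 : ∀ x ∈ Subgroup.closure s, g * x * g⁻¹ ∈ Subgroup.closure s := by
    intro x hx
    induction hx using Subgroup.closure_induction with
    | mem x hx => exact h x hx
    | one => simp
    | mul x y _ _ hx hy =>
      have : g * (x * y) * g⁻¹ = (g * x * g⁻¹) * (g * y * g⁻¹) := by group
      rw [this]; exact mul_mem hx hy
    | inv x _ hx =>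
      have : g * x⁻¹ * g⁻¹ = (g * x * g⁻¹)⁻¹ := by group
      rw [this]; exact inv_mem hx
  have h2 : ∀ k : ℕ, ∀ x ∈ Subgroup.closure s, g ^ k * x * (g ^ k)⁻¹ ∈ Subgroup.closure s := by
    intro k
    induction k with
    | zero => intro x hx; simpa using hx
    | succ k ih =>
      intro x hx
      have : g ^ (k + 1) * x * (g ^ (k + 1))⁻¹ = g ^ k * (g * x * g⁻¹) * (g ^ k)⁻¹ := by
        rw [pow_succ]; group
      rw [this]; exact ih _ (h1 x hx)
  rw [Subgroup.mem_normalizer_iff]
  intro x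
  refine ⟨h1 x, fun hx => ?_⟩
  have := h2 n _ hx
  have e : g ^ n * (g * x * g⁻¹) * (g ^ n)⁻¹ = g ^ (n + 1) * x * (g ^ (n + 1))⁻¹ := by
    rw [pow_succ]; group
  rw [e, hg] at this
  simpa using this

theorem structure_72 {G : Type*} [Group G] [Finite G] (hG : Nat.card G = 72) (N : Subgroup G)
    (hN : Nat.card N = 9) (hN3 : ∀ x ∈ N, x ^ 3 = 1) (m m' : G) (hmN : m ∈ Subgroup.normalizer (N : Set G))
    (hm'N : m' ∈ Subgroup.normalizer (N : Set G))
    (hm4 : m ^ 4 = 1) (hm2 : m ^ 2 ≠ 1) (hsq : m' ^ 2 = m ^ 2) (hconj : m' * m * m'⁻¹ = m⁻¹) :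
    ∃ (_ : N.Normal), Nonempty (G ⧸ N ≃* QuaternionGroup 2) := by
  have hnormal : N.Normal := by
    rw [← Subgroup.normalizer_eq_top_iff]
    set K := Subgroup.normalizer (N : Set G) with hK
    haveI : (N.subgroupOf K).Normal := Subgroup.normal_in_normalizer
    obtain ⟨h1, h2, -, -⟩ := quat_image (QuotientGroup.mk' (N.subgroupOf K))
      (by
        intro n hn
        rw [QuotientGroup.mk'_apply, QuotientGroup.eq_one_iff] at hn
        apply Subtype.ext
        simpa using hN3 _ hn)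
      ⟨m, hmN⟩ ⟨m', hm'N⟩ (Subtype.ext (by simpa using hm4))
      (by
        intro h
        apply hm2
        simpa using congrArg Subtype.val h)
      (Subtype.ext (by simpa using hsq)) (Subtype.ext (by simpa using hconj))
    set c := QuotientGroup.mk' (N.subgroupOf K) ⟨m, hmN⟩ with hc
    have h3 : Nat.card (Subgroup.zpowers c) = 4 := by rw [Nat.card_zpowers, h1]
    have h4 : (Subgroup.zpowers c).index ≠ 1 := by
      intro h
      rw [Subgroup.index_eq_one] at h
      apply h2
      rw [h]; trivial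
    have h5 := (Subgroup.zpowers c).card_mul_index
    have h6 : (Subgroup.zpowers c).index ≠ 0 := Subgroup.index_ne_zero_of_finite
    have h7 := Subgroup.card_eq_card_quotient_mul_card_subgroup (N.subgroupOf K)
    have h8 : Nat.card (N.subgroupOf K) = 9 := by
      rw [← hN]
      exact Nat.card_congr (Subgroup.subgroupOfEquivOfLe Subgroup.le_normalizer).toEquiv
    apply Subgroup.eq_top_of_le_card
    rw [hG, h7, h8, ← h5, h3]
    have : 2 ≤ (Subgroup.zpowers c).index := by omega
    nlinarith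
  refine ⟨hnormal, ?_⟩
  obtain ⟨h1, h2, h3, h4⟩ := quat_image (QuotientGroup.mk' N)
      (by
        intro n hn
        rw [QuotientGroup.mk'_apply, QuotientGroup.eq_one_iff] at hn
        exact hN3 _ hn) m m' hm4 hm2 hsq hconj
  have hcard : Nat.card (G ⧸ N) = 4 * 2 := by
    have h7 := Subgroup.card_eq_card_quotient_mul_card_subgroup N
    rw [hG, hN] at h7
    omega
  exact Cfsg.Agent.Lib.Helper18.mulEquiv_quaternion 2 _ _ (by rw [h1]) h2 h3 h4 hcard

/-- closure of two commuting elements of order three -/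
theorem card_closure_nine {G : Type*} [Group G] [Finite G] (hG : Nat.card G = 72) (a b : G)
    (ha : a ^ 3 = 1) (hb : b ^ 3 = 1) (hab : a * b = b * a) (ha1 : a ≠ 1)
    (hba : b ∉ Subgroup.zpowers a) :
    Nat.card (Subgroup.closure ({a, b} : Set G)) = 9 ∧
      ∀ x ∈ Subgroup.closure ({a, b} : Set G), x ^ 3 = 1 := by
  set N := Subgroup.closure ({a, b} : Set G) with hN
  have hcomm : ∀ x ∈ N, ∀ y ∈ N, x * y = y * x := by
    have hc : ∀ x ∈ ({a, b} : Set G), ∀ y ∈ ({a, b} : Set G), x * y = y * x := by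
      rintro x (rfl | rfl) y (rfl | rfl)
      · rfl
      · exact hab
      · exact hab.symm
      · rfl
    intro x hx y hy
    have := Subgroup.closure_le_centralizer_centralizer ({a, b} : Set G) hx
    rw [Subgroup.mem_centralizer_iff] at this
    refine (this y ?_).symm
    have h2 : N ≤ Subgroup.centralizer ({a, b} : Set G) := by
      rw [hN, Subgroup.closure_le]
      intro z hz
      rw [SetLike.mem_coe, Subgroup.mem_centralizer_iff]
      intro w hw
      exact hc w hw z hz
    exact h2 hy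
  have h3 : ∀ x ∈ N, x ^ 3 = 1 := by
    intro x hx
    induction hx using Subgroup.closure_induction with
    | mem x hx =>
      rcases hx with rfl | rfl
      · exact ha
      · exact hb
    | one => simp
    | mul x y hx hy hx3 hy3 =>
      rw [(show Commute x y from hcomm x hx y hy).mul_pow, hx3, hy3, one_mul]
    | inv x _ hx => rw [inv_pow, hx, inv_one]
  refine ⟨?_, h3⟩
  have hp : IsPGroup 3 N := by
    intro x
    refine ⟨1, ?_⟩
    apply Subtype.ext
    simpa using h3 x.1 x.2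
  haveI : Fact (Nat.Prime 3) := ⟨by norm_num⟩
  obtain ⟨k, hk⟩ := (IsPGroup.iff_card).mp hp
  have hdvd : Nat.card N ∣ 72 := hG ▸ Subgroup.card_subgroup_dvd_card N
  have hk2 : k ≤ 2 := by
    by_contra hcon
    have : 3 ^ 3 ∣ 3 ^ k := pow_dvd_pow 3 (by omega)
    rw [← hk] at this
    have := this.trans hdvd
    omega
  have hle : Subgroup.zpowers a ≤ N := by
    rw [Subgroup.zpowers_le]
    exact Subgroup.subset_closure (by simp)
  have hza : Nat.card (Subgroup.zpowers a) = 3 := by
    rw [Nat.card_zpowers]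
    exact orderOf_eq_prime ha ha1
  have hgt : 3 < Nat.card N := by
    by_contra hcon
    have := Subgroup.eq_of_le_of_card_ge hle (by rw [hza]; omega)
    apply hba
    rw [this]
    exact Subgroup.subset_closure (by simp)
  rw [hk] at hgt ⊢
  interval_cases k <;> simp_all

end abstractPart

section concrete

variable {F : Type*} [Field F]

def mA (w : F) : Matrix (Fin 3) (Fin 3) F := !![1,0,0;0,w,0;0,0,w^2]
def mS : Matrix (Fin 3) (Fin 3) F := !![0,1,0;0,0,1;1,0,0]
def mM (w : F) : Matrix (Fin 3) (Fin 3) F := !![1,1,1;1,w,w^2;1,w^2,w]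
def mM' (w : F) : Matrix (Fin 3) (Fin 3) F := !![1,w^2,w^2;w,w,w^2;w,w^2,w]
def mZ (w : F) : Matrix (Fin 3) (Fin 3) F := !![w,0,0;0,w,0;0,0,w]

section rels

variable (w : F) (hw : w ^ 2 + w + 1 = 0) (h2 : (2 : F) = 0)

include hw h2

theorem det_mA : (mA w).det = 1 := by
  simp [mA, Matrix.det_fin_three]; grind
theorem det_mS : (mS : Matrix (Fin 3) (Fin 3) F).det = 1 := by
  simp [mS, Matrix.det_fin_three]
theorem det_mM : (mM w).det = 1 := by
  simp [mM, Matrix.det_fin_three]; grind
theorem det_mM' : (mM' w).det = 1 := by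
  simp [mM', Matrix.det_fin_three]; grind
theorem det_mZ : (mZ w).det = 1 := by
  simp [mZ, Matrix.det_fin_three]; grind

theorem herm_mA : (mA w)ᵀ * (mA w).map (· ^ 2) = 1 := by
  ext i j
  fin_cases i <;> fin_cases j <;>
    simp [mA, Matrix.mul_apply, Fin.sum_univ_three, Matrix.one_apply] <;> grind
theorem herm_mS : (mS : Matrix (Fin 3) (Fin 3) F)ᵀ * (mS : Matrix (Fin 3) (Fin 3) F).map (· ^ 2) = 1 := by
  ext i j
  fin_cases i <;> fin_cases j <;>
    simp [mS, Matrix.mul_apply, Fin.sum_univ_three, Matrix.one_apply]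
theorem herm_mM : (mM w)ᵀ * (mM w).map (· ^ 2) = 1 := by
  ext i j
  fin_cases i <;> fin_cases j <;>
    simp [mM, Matrix.mul_apply, Fin.sum_univ_three, Matrix.one_apply] <;> grind
theorem herm_mM' : (mM' w)ᵀ * (mM' w).map (· ^ 2) = 1 := by
  ext i j
  fin_cases i <;> fin_cases j <;>
    simp [mM', Matrix.mul_apply, Fin.sum_univ_three, Matrix.one_apply] <;> grind
theorem herm_mZ : (mZ w)ᵀ * (mZ w).map (· ^ 2) = 1 := by
  ext i j
  fin_cases i <;> fin_cases j <;>
    simp [mZ, Matrix.mul_apply, Fin.sum_univ_three, Matrix.one_apply] <;> grind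

theorem rel1 : mM w * mA w = mS * mM w := by
  ext i j
  fin_cases i <;> fin_cases j <;>
    simp [mM, mA, mS, Matrix.mul_apply, Fin.sum_univ_three] <;> grind
theorem rel2 : mM w * mS = mA w * mA w * mM w := by
  ext i j
  fin_cases i <;> fin_cases j <;>
    simp [mM, mA, mS, Matrix.mul_apply, Fin.sum_univ_three] <;> grind
theorem rel3 : mM' w * mA w = mZ w * mZ w * mA w * mS * mM' w := by
  ext i j
  fin_cases i <;> fin_cases j <;>
    simp [mM', mA, mS, mZ, Matrix.mul_apply, Fin.sum_univ_three] <;> grind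
theorem rel4 : mM' w * mS = mZ w * mZ w * mS * mS * mA w * mM' w := by
  ext i j
  fin_cases i <;> fin_cases j <;>
    simp [mM', mA, mS, mZ, Matrix.mul_apply, Fin.sum_univ_three] <;> grind
theorem rel5 : mM' w * mM' w = mM w * mM w := by
  ext i j
  fin_cases i <;> fin_cases j <;>
    simp [mM', mM, Matrix.mul_apply, Fin.sum_univ_three] <;> grind
theorem rel5' : mM w * mM w * (mM w * mM w) = 1 := by
  ext i j
  fin_cases i <;> fin_cases j <;>
    simp [mM, Matrix.mul_apply, Fin.sum_univ_three, Matrix.one_apply] <;> grind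
theorem rel6 : mM w * mM' w * mM w = mM' w := by
  ext i j
  fin_cases i <;> fin_cases j <;>
    simp [mM', mM, Matrix.mul_apply, Fin.sum_univ_three] <;> grind
theorem rel7 : mS * mA w = mZ w * mA w * mS := by
  ext i j
  fin_cases i <;> fin_cases j <;>
    simp [mZ, mA, mS, Matrix.mul_apply, Fin.sum_univ_three] <;> grind
theorem rel8 : mA w * mA w * mA w = 1 := by
  ext i j
  fin_cases i <;> fin_cases j <;>
    simp [mA, Matrix.mul_apply, Fin.sum_univ_three, Matrix.one_apply] <;> grind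
theorem rel9 : (mS : Matrix (Fin 3) (Fin 3) F) * mS * mS = 1 := by
  ext i j
  fin_cases i <;> fin_cases j <;>
    simp [mS, Matrix.mul_apply, Fin.sum_univ_three, Matrix.one_apply]

omit hw h2 in
theorem mZ_comm (g : Matrix (Fin 3) (Fin 3) F) : g * mZ w = mZ w * g := by
  ext i j
  fin_cases i <;> fin_cases j <;>
    simp [mZ, Matrix.mul_apply, Fin.sum_univ_three, mul_comm]

end rels

variable [Fintype F]

theorem two_eq_zero_of_card_four (hF : Fintype.card F = 4) : (2 : F) = 0 := by
  have h : ((Fintype.card F : ℕ) : F) = 0 := Nat.cast_card_eq_zero F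
  rw [hF] at h
  have h4 : (2 : F) * 2 = 0 := by
    have : ((4 : ℕ) : F) = 2 * 2 := by norm_num
    rw [← this]; exact h
  exact mul_self_eq_zero.mp h4

theorem exists_omega (hF : Fintype.card F = 4) : ∃ w : F, w ^ 2 + w + 1 = 0 := by
  classical
  have : ∃ x : F, x ≠ 0 ∧ x ≠ 1 := by
    by_contra hcon
    push Not at hcon
    have : Fintype.card F ≤ 2 := by
      calc Fintype.card F = (Finset.univ : Finset F).card := rfl
        _ ≤ ({0, 1} : Finset F).card := Finset.card_le_card (fun x _ => by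
              by_cases hx : x = 0
              · simp [hx]
              · simp [hcon x hx])
        _ ≤ 2 := Finset.card_le_two
    omega
  obtain ⟨x, hx0, hx1⟩ := this
  refine ⟨x, ?_⟩
  have h3 : x ^ 3 = 1 := by
    have := FiniteField.pow_card_sub_one_eq_one x hx0
    rwa [hF] at this
  have : (x - 1) * (x ^ 2 + x + 1) = 0 := by linear_combination h3
  rcases mul_eq_zero.mp this with h | h
  · exact absurd (sub_eq_zero.mp h) hx1
  · exact h

/-- package a matrix as an element of `SU₃(2)` -/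
def suOf (hF : Fintype.card F = 2 ^ 2) (A : Matrix (Fin 3) (Fin 3) F) (hdet : A.det = 1)
    (hA : Aᵀ * A.map (· ^ 2) = 1) : Cfsg.SU 3 F 2 :=
  Cfsg.Agent.Lib.Helper18.mkSU A hdet ((Cfsg.Agent.Lib.Helper18.herm_preserve_iff hF A).mpr hA)

theorem su_ext {x y : Cfsg.SU 3 F 2}
    (h : (x.1 : Matrix (Fin 3) (Fin 3) F) = (y.1 : Matrix (Fin 3) (Fin 3) F)) : x = y :=
  Subtype.ext (Subtype.ext h)

theorem psu32_structure (hF : Fintype.card F = 4) :
    ∃ (N : Subgroup (Cfsg.PSU 3 F 2)) (_ : N.Normal), Nat.card N = 9 ∧ (∀ x ∈ N, x ^ 3 = 1) ∧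
      Nonempty (Cfsg.PSU 3 F 2 ⧸ N ≃* QuaternionGroup 2) := by
  classical
  have hF' : Fintype.card F = 2 ^ 2 := by rw [hF]; norm_num
  have h2 := two_eq_zero_of_card_four hF
  obtain ⟨w, hw⟩ := exists_omega hF
  have hw1 : w ≠ 1 := by
    rintro rfl
    have : (1 : F) = 0 := by linear_combination hw - h2
    exact one_ne_zero this
  have hcard : Nat.card (Cfsg.PSU 3 F 2) = 72 := by
    have := Cfsg.Agent.S0280.result hF' 3 (by norm_num)
    have e : (2 : ℕ) ^ (3 * (3 - 1) / 2) * ∏ i ∈ Finset.range 3,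
        (if Even i then 2 ^ (i + 1) + 1 else 2 ^ (i + 1) - 1) = 648 := by
      decide
    rw [e] at this
    have g : Nat.gcd 3 (2 + 1) = 3 := by norm_num
    rw [g] at this
    omega
  haveI : Finite (Matrix.SpecialLinearGroup (Fin 3) F) :=
    Finite.of_injective Subtype.val Subtype.val_injective
  haveI : Finite (Cfsg.PSU 3 F 2) := inferInstance
  let a : Cfsg.SU 3 F 2 := suOf hF' (mA w) (det_mA w hw h2) (herm_mA w hw h2)
  let b : Cfsg.SU 3 F 2 := suOf hF' mS (det_mS w hw h2) (herm_mS w hw h2)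
  let M : Cfsg.SU 3 F 2 := suOf hF' (mM w) (det_mM w hw h2) (herm_mM w hw h2)
  let M' : Cfsg.SU 3 F 2 := suOf hF' (mM' w) (det_mM' w hw h2) (herm_mM' w hw h2)
  let Z : Cfsg.SU 3 F 2 := suOf hF' (mZ w) (det_mZ w hw h2) (herm_mZ w hw h2)
  have r1 : M * a = b * M := su_ext (rel1 w hw h2)
  have r2 : M * b = a * a * M := su_ext (rel2 w hw h2)
  have r3 : M' * a = Z * Z * a * b * M' := su_ext (rel3 w hw h2)
  have r4 : M' * b = Z * Z * b * b * a * M' := su_ext (rel4 w hw h2)
  have r5 : M' * M' = M * M := su_ext (rel5 w hw h2)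
  have r5' : M * M * (M * M) = 1 := su_ext (rel5' w hw h2)
  have r6 : M * M' * M = M' := su_ext (rel6 w hw h2)
  have r7 : b * a = Z * a * b := su_ext (rel7 w hw h2)
  have r8 : a * a * a = 1 := su_ext (rel8 w hw h2)
  have r9 : b * b * b = 1 := su_ext (rel9 w hw h2)
  have hZ : Z ∈ Subgroup.center (Cfsg.SU 3 F 2) := by
    rw [Subgroup.mem_center_iff]
    intro g
    exact su_ext (mZ_comm w _)
  have hZ1 : Z ≠ 1 := by
    intro h
    have := congrArg (fun x : Cfsg.SU 3 F 2 => (x.1 : Matrix (Fin 3) (Fin 3) F) 0 0) h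
    apply hw1
    simpa [Z, suOf, Cfsg.Agent.Lib.Helper18.mkSU, mZ] using this
  have hnc : a * b ≠ b * a := by
    intro h
    apply hZ1
    rw [r7, mul_assoc] at h
    exact (mul_eq_right.mp h.symm)
  let π : Cfsg.SU 3 F 2 →* Cfsg.PSU 3 F 2 := QuotientGroup.mk' _
  have hπZ : π Z = 1 := (QuotientGroup.eq_one_iff Z).mpr hZ
  have hπ1 : ∀ x, π x = 1 → x ∈ Subgroup.center (Cfsg.SU 3 F 2) :=
    fun x hx => (QuotientGroup.eq_one_iff x).mp hx
  have hab : π a * π b = π b * π a := by
    rw [← map_mul (f := π) b a, r7, map_mul, map_mul, hπZ, one_mul]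
  have ha3 : π a ^ 3 = 1 := by
    rw [← map_pow, pow_succ, pow_two, r8, map_one]
  have hb3 : π b ^ 3 = 1 := by
    rw [← map_pow, pow_succ, pow_two, r9, map_one]
  have ha1 : π a ≠ 1 := by
    intro h
    apply hnc
    exact ((Subgroup.mem_center_iff.mp (hπ1 a h)) b).symm
  have hba : π b ∉ Subgroup.zpowers (π a) := by
    rintro ⟨k, hk⟩
    apply hnc
    have h1 : π ((a ^ k)⁻¹ * b) = 1 := by
      rw [map_mul, map_inv, map_zpow, ← hk]
      simp
    have h2 := Subgroup.mem_center_iff.mp (hπ1 _ h1) a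
    have h3 : b = a ^ k * ((a ^ k)⁻¹ * b) := by group
    have h4 : a * a ^ k = a ^ k * a := by
      rw [← _root_.zpow_one_add, ← _root_.zpow_add_one, add_comm]
    calc a * b = a * (a ^ k * ((a ^ k)⁻¹ * b)) := by rw [← h3]
      _ = a ^ k * (a * ((a ^ k)⁻¹ * b)) := by rw [← mul_assoc, h4, mul_assoc]
      _ = a ^ k * (((a ^ k)⁻¹ * b) * a) := by rw [h2]
      _ = b * a := by rw [← mul_assoc, ← h3]
  obtain ⟨hN9, hN3⟩ := card_closure_nine hcard (π a) (π b) ha3 hb3 hab ha1 hba
  have haN : π a ∈ Subgroup.closure ({π a, π b} : Set (Cfsg.PSU 3 F 2)) :=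
    Subgroup.subset_closure (by simp)
  have hbN : π b ∈ Subgroup.closure ({π a, π b} : Set (Cfsg.PSU 3 F 2)) :=
    Subgroup.subset_closure (by simp)
  have hM4 : π M ^ 4 = 1 := by
    rw [← map_pow, show (4 : ℕ) = 2 + 2 from rfl, pow_add, pow_two, r5', map_one]
  have hsq : π M' ^ 2 = π M ^ 2 := by
    rw [← map_pow, ← map_pow, pow_two, pow_two, r5]
  have hM'4 : π M' ^ 4 = 1 := by
    rw [show (4 : ℕ) = 2 + 2 from rfl, pow_add, hsq, ← pow_add]; exact hM4
  have hM2 : π M ^ 2 ≠ 1 := by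
    intro h
    rw [← map_pow] at h
    have h1 := Subgroup.mem_center_iff.mp (hπ1 _ h) a
    -- M² a = a M²; but M² a M⁻² = a⁻¹
    have h3 : M ^ 2 * a = a * a * M ^ 2 := by
      rw [pow_two, mul_assoc, r1, ← mul_assoc, r2, mul_assoc]
    rw [h3] at h1
    have h4 : a = a * a := mul_right_cancel h1
    have h5 : a = 1 := by
      have := mul_left_cancel (a := a) (b := 1) (c := a) (by rw [mul_one]; exact h4)
      exact this.symm
    apply ha1
    rw [h5, map_one]
  have hconj : π M' * π M * (π M')⁻¹ = (π M)⁻¹ := by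
    rw [mul_inv_eq_iff_eq_mul, eq_inv_mul_iff_mul_eq, ← map_mul, ← map_mul, ← mul_assoc, r6]
  have hMn : π M ∈ Subgroup.normalizer
      ((Subgroup.closure ({π a, π b} : Set (Cfsg.PSU 3 F 2)) : Subgroup _) : Set _) := by
    apply mem_normalizer_closure _ _ 3 hM4
    rintro x (rfl | rfl)
    · have : π M * π a * (π M)⁻¹ = π b := by
        rw [mul_inv_eq_iff_eq_mul, ← map_mul, r1, map_mul]
      rw [this]; exact hbN
    · have : π M * π b * (π M)⁻¹ = π a * π a := by
        rw [mul_inv_eq_iff_eq_mul, ← map_mul, r2, map_mul, map_mul]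
      rw [this]; exact mul_mem haN haN
  have hM'n : π M' ∈ Subgroup.normalizer
      ((Subgroup.closure ({π a, π b} : Set (Cfsg.PSU 3 F 2)) : Subgroup _) : Set _) := by
    apply mem_normalizer_closure _ _ 3 hM'4
    rintro x (rfl | rfl)
    · have : π M' * π a * (π M')⁻¹ = π a * π b := by
        rw [mul_inv_eq_iff_eq_mul, ← map_mul, r3]
        simp only [map_mul, hπZ, one_mul]
      rw [this]; exact mul_mem haN hbN
    · have : π M' * π b * (π M')⁻¹ = π b * π b * π a := by
        rw [mul_inv_eq_iff_eq_mul, ← map_mul, r4]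
        simp only [map_mul, hπZ, one_mul]
      rw [this]; exact mul_mem (mul_mem hbN hbN) haN
  obtain ⟨hn, hq⟩ := structure_72 hcard _ hN9 hN3 (π M) (π M') hMn hM'n hM4 hM2 hsq hconj
  exact ⟨_, hn, hN9, hN3, hq⟩

end concrete

end Cfsg.Agent.H14
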