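import Mathlib

set_option autoImplicit false

namespace Cfsg.Agent.H14.RankOne

variable {F : Type*} [Field F] {ι : Type*} [Fintype ι] [DecidableEq ι]

local notation "SLn" => Matrix.SpecialLinearGroup ι F
local notation "Mn" => Matrix ι ι F

open Matrix in
/-- `H` contains the element `1 + x φᵀ`. -/
def Tm (H : Subgroup SLn) (x φ : ι → F) : Prop :=
  ∃ g ∈ H, (g : Mn) = 1 + Matrix.vecMulVec x φ

theorem coe_mul_inv (k : SLn) : (k : Mn) * ((k⁻¹ : SLn) : Mn) = 1 := by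
  rw [← Matrix.SpecialLinearGroup.coe_mul, mul_inv_cancel, Matrix.SpecialLinearGroup.coe_one]

theorem coe_inv_mul (k : SLn) : ((k⁻¹ : SLn) : Mn) * (k : Mn) = 1 := by
  rw [← Matrix.SpecialLinearGroup.coe_mul, inv_mul_cancel, Matrix.SpecialLinearGroup.coe_one]

theorem Tm.zero (H : Subgroup SLn) (x : ι → F) : Tm H x 0 :=
  ⟨1, H.one_mem, by
    have : Matrix.vecMulVec x (0 : ι → F) = 0 := by ext i j; simp [Matrix.vecMulVec_apply]
    rw [this, add_zero, Matrix.SpecialLinearGroup.coe_one]⟩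

theorem Tm.conj {H : Subgroup SLn} {x φ : ι → F} (h : Tm H x φ) {k : SLn} (hk : k ∈ H) :
    Tm H ((k : Mn).mulVec x) (Matrix.vecMul φ ((k⁻¹ : SLn) : Mn)) := by
  obtain ⟨g, hg, hgm⟩ := h
  refine ⟨k * g * k⁻¹, H.mul_mem (H.mul_mem hk hg) (H.inv_mem hk), ?_⟩
  rw [Matrix.SpecialLinearGroup.coe_mul, Matrix.SpecialLinearGroup.coe_mul, hgm, mul_add, add_mul,
    mul_one, coe_mul_inv, Matrix.mul_vecMulVec, Matrix.vecMulVec_mul]

theorem Tm.add {H : Subgroup SLn} {x φ φ' : ι → F} (h : Tm H x φ) (h' : Tm H x φ')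
    (h0 : φ ⬝ᵥ x = 0) : Tm H x (φ + φ') := by
  obtain ⟨g, hg, hgm⟩ := h
  obtain ⟨g', hg', hgm'⟩ := h'
  refine ⟨g * g', H.mul_mem hg hg', ?_⟩
  have : Matrix.vecMulVec x (0 : ι → F) = 0 := by ext i j; simp [Matrix.vecMulVec_apply]
  rw [Matrix.SpecialLinearGroup.coe_mul, hgm, hgm']
  simp only [mul_add, add_mul, mul_one, one_mul]
  rw [Matrix.vecMulVec_mul_vecMulVec, h0, zero_smul, Matrix.vecMulVec_add, this, add_zero, add_assoc]

theorem Tm.neg {H : Subgroup SLn} {x φ : ι → F} (h : Tm H x φ) (h0 : φ ⬝ᵥ x = 0) :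
    Tm H x (-φ) := by
  obtain ⟨g, hg, hgm⟩ := h
  refine ⟨g⁻¹, H.inv_mem hg, ?_⟩
  have e : (g : Mn) * (1 + Matrix.vecMulVec x (-φ)) = 1 := by
    have : Matrix.vecMulVec x (0 : ι → F) = 0 := by ext i j; simp [Matrix.vecMulVec_apply]
    rw [hgm]
    simp only [mul_add, add_mul, mul_one, one_mul]
    rw [Matrix.vecMulVec_mul_vecMulVec, h0, zero_smul, Matrix.vecMulVec_neg, this, add_zero]
    abel
  calc ((g⁻¹ : SLn) : Mn) = ((g⁻¹ : SLn) : Mn) * ((g : Mn) * (1 + Matrix.vecMulVec x (-φ))) := by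
        rw [e, mul_one]
    _ = 1 + Matrix.vecMulVec x (-φ) := by rw [← mul_assoc, coe_inv_mul, one_mul]

theorem Tm.sub {H : Subgroup SLn} {x φ φ' : ι → F} (h : Tm H x φ) (h' : Tm H x φ')
    (h0 : φ ⬝ᵥ x = 0) (h0' : φ' ⬝ᵥ x = 0) : Tm H x (φ - φ') := by
  rw [sub_eq_add_neg]
  exact h.add (h'.neg h0') h0

theorem Tm.comm {H : Subgroup SLn} {x φ y ψ : ι → F} (h : Tm H x φ) (h' : Tm H y ψ)
    (hy : ψ ⬝ᵥ y = 0) (hyx : ψ ⬝ᵥ x = 0) : Tm H x ((φ ⬝ᵥ y) • ψ) := by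
  obtain ⟨g, hg, hgm⟩ := h
  obtain ⟨g', hg', hgm'⟩ := h'
  refine ⟨g * g' * g⁻¹ * g'⁻¹, H.mul_mem (H.mul_mem (H.mul_mem hg hg') (H.inv_mem hg))
    (H.inv_mem hg'), ?_⟩
  have z : Matrix.vecMulVec x (0 : ι → F) = 0 := by ext i j; simp [Matrix.vecMulVec_apply]
  have z' : Matrix.vecMulVec y (0 : ι → F) = 0 := by ext i j; simp [Matrix.vecMulVec_apply]
  set X := Matrix.vecMulVec x φ with hX
  set Y := Matrix.vecMulVec y ψ with hY
  have hYX : Y * X = 0 := by rw [hX, hY, Matrix.vecMulVec_mul_vecMulVec, hyx, zero_smul, z']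
  have hYY : Y * Y = 0 := by rw [hY, Matrix.vecMulVec_mul_vecMulVec, hy, zero_smul, z']
  have hXY : X * Y = Matrix.vecMulVec x ((φ ⬝ᵥ y) • ψ) := by
    rw [hX, hY, Matrix.vecMulVec_mul_vecMulVec]
  have key : (1 + X) * (1 + Y) = (1 + X * Y) * ((1 + Y) * (1 + X)) := by
    have e1 : (1 + Y) * (1 + X) = 1 + X + Y := by
      simp only [mul_add, add_mul, mul_one, one_mul]
      rw [hYX, add_zero]
      abel
    rw [e1]
    simp only [mul_add, add_mul, mul_one, one_mul]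
    rw [mul_assoc X Y X, hYX, mul_zero, mul_assoc X Y Y, hYY, mul_zero]
    abel
  have e2 : ((g * g' * g⁻¹ * g'⁻¹ : SLn) : Mn) * ((g' : Mn) * (g : Mn)) = (g : Mn) * (g' : Mn) := by
    rw [← Matrix.SpecialLinearGroup.coe_mul, ← Matrix.SpecialLinearGroup.coe_mul,
      ← Matrix.SpecialLinearGroup.coe_mul]
    have : g * g' * g⁻¹ * g'⁻¹ * (g' * g) = g * g' := by group
    rw [this]
  have e3 : ((g' : Mn) * (g : Mn)) * (((g' * g)⁻¹ : SLn) : Mn) = 1 := by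
    rw [← Matrix.SpecialLinearGroup.coe_mul, coe_mul_inv]
  calc ((g * g' * g⁻¹ * g'⁻¹ : SLn) : Mn)
      = ((g * g' * g⁻¹ * g'⁻¹ : SLn) : Mn) * (((g' : Mn) * (g : Mn)) * (((g' * g)⁻¹ : SLn) : Mn)) := by
        rw [e3, mul_one]
    _ = ((g : Mn) * (g' : Mn)) * (((g' * g)⁻¹ : SLn) : Mn) := by rw [← mul_assoc, e2]
    _ = (1 + X * Y) * (((g' : Mn) * (g : Mn)) * (((g' * g)⁻¹ : SLn) : Mn)) := by
        rw [hgm, hgm', key, mul_assoc]
    _ = 1 + Matrix.vecMulVec x ((φ ⬝ᵥ y) • ψ) := by rw [e3, mul_one, hXY]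

theorem Tm.of_smul {H : Subgroup SLn} {x φ : ι → F} {l : F} (h : Tm H (l • x) φ) :
    Tm H x (l • φ) := by
  obtain ⟨g, hg, hgm⟩ := h
  exact ⟨g, hg, by rw [hgm, Matrix.smul_vecMulVec, Matrix.vecMulVec_smul]⟩

/-- the whole "row group" with centre `x` lies in `H` -/
def Full (H : Subgroup SLn) (x : ι → F) : Prop := ∀ φ : ι → F, φ ⬝ᵥ x = 0 → Tm H x φ

theorem Full.map {H : Subgroup SLn} {x y : ι → F} (h : Full H x) {k : SLn} (hk : k ∈ H) {l : F}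
    (hl : l ≠ 0) (hkx : (k : Mn).mulVec x = l • y) : Full H y := by
  intro φ' hφ'
  have h1 : (Matrix.vecMul (l⁻¹ • φ') (k : Mn)) ⬝ᵥ x = 0 := by
    rw [← Matrix.dotProduct_mulVec, hkx, dotProduct_smul, smul_dotProduct, hφ']
    simp
  have h2 := (h _ h1).conj hk
  rw [hkx, Matrix.vecMul_vecMul, coe_mul_inv, Matrix.vecMul_one] at h2
  have h3 := h2.of_smul
  rwa [smul_smul, mul_inv_cancel₀ hl, one_smul] at h3

theorem full_of_single {H : Subgroup SLn} {i : ι}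
    (h : ∀ j, j ≠ i → ∀ a : F, Tm H (Pi.single i 1) (a • Pi.single j 1)) :
    Full H (Pi.single i (1 : F)) := by
  intro φ hφ
  have hφi : φ i = 0 := by simpa using hφ
  have hsum : φ = ∑ j, φ j • (Pi.single j (1 : F) : ι → F) := by
    funext k
    simp [Finset.sum_apply, Pi.single_apply]
  rw [hsum]
  have : Tm H (Pi.single i 1) (∑ j, φ j • (Pi.single j (1 : F) : ι → F)) ∧
      (∑ j, φ j • (Pi.single j (1 : F) : ι → F)) ⬝ᵥ Pi.single i 1 = 0 := by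
    refine Finset.sum_induction _
      (fun ψ : ι → F => Tm H (Pi.single i 1) ψ ∧ ψ ⬝ᵥ Pi.single i 1 = 0) ?_ ?_ ?_
    · rintro a b ⟨ha, ha0⟩ ⟨hb, hb0⟩
      exact ⟨ha.add hb ha0, by rw [add_dotProduct, ha0, hb0, add_zero]⟩
    · exact ⟨Tm.zero H _, by simp⟩
    · intro j _
      by_cases hj : j = i
      · subst hj
        rw [hφi, zero_smul]
        exact ⟨Tm.zero H _, by simp⟩
      · exact ⟨h j hj _, by simp [Pi.single_apply, hj, Ne.symm hj]⟩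
  exact this.1

end Cfsg.Agent.H14.RankOne
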