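import Mathlib
import Cfsg.Agent.H14.RankOne
import Cfsg.Agent.Lib.Helper18.SLGen

set_option autoImplicit false

namespace Cfsg.Agent.H14.RankOne

variable {F : Type*} [Field F]

/-- nilpotent upper Jordan block -/
def Nup (k : ℕ) (F : Type*) [Field F] : Matrix (Fin k) (Fin k) F :=
  Matrix.of fun i j => if j.val = i.val + 1 then 1 else 0

/-- weighted lower Jordan block -/
def Llow {k : ℕ} (η : Fin k → F) : Matrix (Fin k) (Fin k) F :=
  Matrix.of fun i j => if i.val = j.val + 1 then η i else 0

section rows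
variable {k : ℕ}

theorem rowU {j j' : Fin k} (h : j'.val = j.val + 1) :
    Matrix.vecMul (Pi.single j 1) (1 + Nup k F) = Pi.single j 1 + Pi.single j' 1 := by
  rw [Matrix.vecMul_add, Matrix.vecMul_one, Matrix.single_one_vecMul]
  congr 1
  funext x
  simp only [Matrix.row, Nup, Matrix.of_apply, Pi.single_apply, Fin.ext_iff, h]

theorem rowU_last {j : Fin k} (h : j.val + 1 = k) :
    Matrix.vecMul (Pi.single j 1) (1 + Nup k F) = Pi.single j 1 := by
  rw [Matrix.vecMul_add, Matrix.vecMul_one, Matrix.single_one_vecMul]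
  have : (Nup k F).row j = 0 := by
    funext x
    have := x.isLt
    simp only [Matrix.row, Nup, Matrix.of_apply, Pi.zero_apply]
    rw [if_neg (by omega)]
  rw [this, add_zero]

theorem colU0 {j : Fin k} (h : j.val = 0) :
    (1 + Nup k F).mulVec (Pi.single j 1) = Pi.single j 1 := by
  rw [Matrix.add_mulVec, Matrix.one_mulVec, Matrix.mulVec_single_one]
  have : (Nup k F).col j = 0 := by
    funext x
    show Nup k F x j = 0
    simp only [Nup, Matrix.of_apply]
    rw [if_neg (by omega)]
  rw [this, add_zero]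

theorem rowL (η : Fin k → F) {j j' : Fin k} (h : j.val = j'.val + 1) :
    Matrix.vecMul (Pi.single j 1) (1 + Llow η) = Pi.single j 1 + η j • Pi.single j' 1 := by
  rw [Matrix.vecMul_add, Matrix.vecMul_one, Matrix.single_one_vecMul]
  congr 1
  funext x
  simp only [Matrix.row, Llow, Matrix.of_apply, Pi.single_apply, Fin.ext_iff, h, Pi.smul_apply,
    smul_eq_mul, mul_ite, mul_one, mul_zero]
  congr 1
  exact propext ⟨fun e => by omega, fun e => by omega⟩

theorem rowL0 (η : Fin k → F) {j : Fin k} (h : j.val = 0) :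
    Matrix.vecMul (Pi.single j 1) (1 + Llow η) = Pi.single j 1 := by
  rw [Matrix.vecMul_add, Matrix.vecMul_one, Matrix.single_one_vecMul]
  have : (Llow η).row j = 0 := by
    funext x
    simp only [Matrix.row, Llow, Matrix.of_apply, Pi.zero_apply]
    rw [if_neg (by omega)]
  rw [this, add_zero]

theorem colL (η : Fin k → F) {j j' : Fin k} (h : j.val = j'.val + 1) :
    (1 + Llow η).mulVec (Pi.single j' 1) = Pi.single j' 1 + η j • Pi.single j 1 := by
  rw [Matrix.add_mulVec, Matrix.one_mulVec, Matrix.mulVec_single_one]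
  congr 1
  funext x
  show Llow η x j' = _
  simp only [Llow, Matrix.of_apply, Pi.single_apply, Fin.ext_iff, Pi.smul_apply,
    smul_eq_mul, mul_ite, mul_one, mul_zero]
  by_cases hx : x.val = j'.val + 1
  · have : x = j := Fin.ext (by omega)
    subst this
    simp [hx]
  · rw [if_neg hx, if_neg (by omega)]

end rows

section gen

variable {m : ℕ}

local notation "SLn" => Matrix.SpecialLinearGroup (Fin (m + 3)) F
local notation "Mn" => Matrix (Fin (m + 3)) (Fin (m + 3)) F
local notation "e" => fun i : Fin (m + 3) => (Pi.single i (1 : F) : Fin (m + 3) → F)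

theorem inv_mulVec_of_fix {g : SLn} {x : Fin (m + 3) → F} (h : (g : Mn).mulVec x = x) :
    ((g⁻¹ : SLn) : Mn).mulVec x = x := by
  calc ((g⁻¹ : SLn) : Mn).mulVec x = ((g⁻¹ : SLn) : Mn).mulVec ((g : Mn).mulVec x) := by rw [h]
    _ = x := by rw [Matrix.mulVec_mulVec, coe_inv_mul, Matrix.one_mulVec]

theorem gen (H : Subgroup SLn) (u v : SLn) (hu : u ∈ H) (hv : v ∈ H)
    (hum : (u : Mn) = 1 + Nup (m + 3) F) (η : Fin (m + 3) → F) (hη : ∀ i, η i ≠ 0)
    (hvm : (v : Mn) = 1 + Llow η) (c : F)
    (h02 : Tm H (e 0) (c • e 2))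
    (hc : ∀ a : F, a ≠ 0 → ∃ k : ℕ, a = c * (c * (η 1 * η 2) * η (Fin.last _)) ^ k) : H = ⊤ := by
  -- step with `u`
  have stepU : ∀ φ : Fin (m + 3) → F, Tm H (e 0) φ → Tm H (e 0) (Matrix.vecMul φ (u : Mn)) := by
    intro φ h
    have h1 := h.conj (H.inv_mem hu)
    rw [inv_inv, inv_mulVec_of_fix (by rw [hum]; exact colU0 rfl)] at h1
    exact h1
  have dot0 : ∀ (j : Fin (m + 3)) (a : F), j ≠ 0 → (a • e j) ⬝ᵥ (e 0) = 0 := by
    intro j a hj
    simp [Pi.single_apply, Ne.symm hj]
  have S1 : ∀ (j j' : Fin (m + 3)) (a : F), j ≠ 0 → j'.val = j.val + 1 →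
      Tm H (e 0) (a • e j) → Tm H (e 0) (a • e j') := by
    intro j j' a hj hjj h
    have h1 := stepU _ h
    rw [Matrix.smul_vecMul, hum, rowU hjj, smul_add] at h1
    have hj' : j' ≠ 0 := by
      intro e0
      rw [e0] at hjj
      simp at hjj
    have h2 := h1.sub h (by rw [add_dotProduct, dot0 j a hj, dot0 j' a hj', add_zero]) (dot0 j a hj)
    rwa [add_sub_cancel_left] at h2
  -- the vector `f = v⁻¹ e₀`
  set f : Fin (m + 3) → F := ((v⁻¹ : SLn) : Mn).mulVec (e 0) with hf
  have hvf : (v : Mn).mulVec f = e 0 := by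
    rw [hf, Matrix.mulVec_mulVec, coe_mul_inv, Matrix.one_mulVec]
  have coord : ∀ j : Fin (m + 3), (Matrix.vecMul (e j) (v : Mn)) ⬝ᵥ f = if j = 0 then 1 else 0 := by
    intro j
    rw [← Matrix.dotProduct_mulVec, hvf]
    simp [Pi.single_apply, eq_comm]
  have h10 : (1 : Fin (m + 3)) ≠ 0 := by simp [Fin.ext_iff]
  have h20 : (2 : Fin (m + 3)) ≠ 0 := by
    intro h
    have := congrArg Fin.val h
    rw [Fin.val_two] at this
    simp at this
  have f0 : f 0 = 1 := by
    have := coord 0
    rw [hvm, rowL0 η rfl] at this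
    simpa using this
  have f1 : f 1 = - η 1 := by
    have := coord 1
    rw [hvm, rowL η (j := 1) (j' := 0) (by simp)] at this
    simp [add_dotProduct, f0, h10] at this
    linear_combination this
  have f2 : f 2 = η 1 * η 2 := by
    have := coord 2
    rw [hvm, rowL η (j := 2) (j' := 1) (by simp)] at this
    simp [add_dotProduct, f1, h20] at this
    linear_combination this
  have S2 : ∀ (k k' : Fin (m + 3)) (a : F), k' ≠ 0 → k.val = k'.val + 1 →
      Tm H (e 0) (a • e k) → Tm H (e 0) ((c * (η 1 * η 2) * a) • (e k + η k • e k')) := by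
    intro k k' a hk' hkk h
    have hk : k ≠ 0 := by
      intro e0
      rw [e0] at hkk
      simp at hkk
    have h1 := h.conj (H.inv_mem hv)
    rw [inv_inv, ← hf] at h1
    have hy : (Matrix.vecMul (a • e k) (v : Mn)) ⬝ᵥ f = 0 := by
      rw [← Matrix.dotProduct_mulVec, hvf]
      exact dot0 k a hk
    have e1 : Matrix.vecMul (a • e k) (v : Mn) = a • (e k + η k • e k') := by
      rw [Matrix.smul_vecMul, hvm, rowL η hkk]
    have hyx : (Matrix.vecMul (a • e k) (v : Mn)) ⬝ᵥ (e 0) = 0 := by
      rw [e1, smul_add, add_dotProduct, dot0 k a hk, smul_smul, dot0 k' _ hk', add_zero]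
    have h2 := h02.comm h1 hy hyx
    rw [e1] at h2
    have e2 : (c • e 2) ⬝ᵥ f = c * (η 1 * η 2) := by
      simp [f2]
    rw [e2, smul_smul] at h2
    exact h2
  have hc0 : c ≠ 0 := by
    obtain ⟨k, hk⟩ := hc 1 one_ne_zero
    intro h0
    rw [h0, zero_mul] at hk
    exact one_ne_zero hk
  -- `c ∈ A j` for `j ≥ 2`
  have S1' : ∀ (d : ℕ) (j : Fin (m + 3)), j.val = 2 + d → Tm H (e 0) (c • e j) := by
    intro d
    induction d with
    | zero =>
      intro j hj
      have : j = 2 := Fin.ext (by rw [hj, Fin.val_two])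
      rw [this]; exact h02
    | succ d ih =>
      intro j hj
      have hlt := j.isLt
      have h1 := ih ⟨2 + d, by omega⟩ rfl
      exact S1 ⟨2 + d, by omega⟩ j c (by simp [Fin.ext_iff]) (by simp [hj]; omega) h1
  set L : Fin (m + 3) := Fin.last (m + 2) with hL
  set L' : Fin (m + 3) := ⟨m + 1, by omega⟩ with hL'
  have hLL : L.val = L'.val + 1 := by simp [hL, hL']
  have hL0 : L ≠ 0 := by simp [hL, Fin.ext_iff]
  have hL'0 : L' ≠ 0 := by simp [hL', Fin.ext_iff]
  have S3 : ∀ a : F, Tm H (e 0) (a • e L) → Tm H (e 0) ((a * (c * (η 1 * η 2) * η L)) • e L) := by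
    intro a h
    have h1 := S2 L L' a hL'0 hLL h
    have h2 := stepU _ h1
    rw [Matrix.smul_vecMul, Matrix.add_vecMul, Matrix.smul_vecMul, hum, rowU_last (by simp [hL]),
      rowU hLL] at h2
    have d1 : ((c * (η 1 * η 2) * a) • (e L + η L • e L')) ⬝ᵥ (e 0) = 0 := by
      rw [smul_add, add_dotProduct, dot0 L _ hL0, smul_smul, dot0 L' _ hL'0, add_zero]
    have d2 : ((c * (η 1 * η 2) * a) • (e L + η L • (e L' + e L))) ⬝ᵥ (e 0) = 0 := by
      rw [smul_add, smul_add, smul_add, add_dotProduct, add_dotProduct, dot0 L _ hL0, smul_smul,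
        dot0 L' _ hL'0, smul_smul, dot0 L _ hL0]
      simp
    have h3 := h2.sub h1 d2 d1
    convert h3 using 1
    funext x
    simp only [Pi.smul_apply, Pi.add_apply, Pi.sub_apply, smul_eq_mul]
    ring
  have S3' : ∀ k : ℕ, Tm H (e 0) ((c * (c * (η 1 * η 2) * η L) ^ k) • e L) := by
    intro k
    induction k with
    | zero => simpa using S1' m L (by simp [hL]; omega)
    | succ k ih =>
      have := S3 _ ih
      rwa [mul_assoc, ← pow_succ] at this
  have fullL : ∀ a : F, Tm H (e 0) (a • e L) := by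
    intro a
    by_cases ha : a = 0
    · rw [ha, zero_smul]; exact Tm.zero H _
    · obtain ⟨k, hk⟩ := hc a ha
      rw [hk]; exact S3' k
  have S4 : ∀ (k k' : Fin (m + 3)), k' ≠ 0 → k.val = k'.val + 1 →
      (∀ a : F, Tm H (e 0) (a • e k)) → ∀ a : F, Tm H (e 0) (a • e k') := by
    intro k k' hk' hkk hfull t
    have hk : k ≠ 0 := by
      intro e0
      rw [e0] at hkk
      simp at hkk
    have h1 := S2 k k' (t / (c * (η 1 * η 2) * η k)) hk' hkk (hfull _)
    have h2 := hfull (c * (η 1 * η 2) * (t / (c * (η 1 * η 2) * η k)))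
    have d1 : ((c * (η 1 * η 2) * (t / (c * (η 1 * η 2) * η k))) • (e k + η k • e k')) ⬝ᵥ (e 0) = 0 := by
      rw [smul_add, add_dotProduct, dot0 k _ hk, smul_smul, dot0 k' _ hk', add_zero]
    have h3 := h1.sub h2 d1 (dot0 k _ hk)
    convert h3 using 1
    funext x
    simp only [Pi.smul_apply, Pi.add_apply, Pi.sub_apply, smul_eq_mul]
    have := hη 1
    have := hη 2
    have := hη k
    field_simp
    ring
  have S5 : ∀ (d : ℕ) (j : Fin (m + 3)), j.val + d = m + 2 → j ≠ 0 → ∀ a : F, Tm H (e 0) (a • e j) := by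
    intro d
    induction d with
    | zero =>
      intro j hj _
      have : j = L := Fin.ext (by simp [hL]; omega)
      rw [this]; exact fullL
    | succ d ih =>
      intro j hj hj0
      have hne : (⟨j.val + 1, by omega⟩ : Fin (m + 3)) ≠ 0 := by
        intro h
        have := congrArg Fin.val h
        simp at this
      exact S4 ⟨j.val + 1, by omega⟩ j hj0 rfl (ih ⟨j.val + 1, by omega⟩ (by show j.val + 1 + d = m + 2; omega)
        hne)
  have full0 : Full H (e 0) := by
    apply full_of_single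
    intro j hj a
    have := j.isLt
    exact S5 (m + 2 - j.val) j (by omega) hj a
  have S6 : ∀ (i i' : Fin (m + 3)), i'.val = i.val + 1 → Full H (e i) → Full H (e i') := by
    intro i i' hii hfull
    have hne : i' ≠ i := by
      intro h
      rw [h] at hii
      omega
    obtain ⟨gT, hgT, hgTm⟩ := hfull ((-(η i')⁻¹) • e i') (by simp [Pi.single_apply, hne])
    refine hfull.map (H.mul_mem hgT hv) (hη i') (y := e i') ?_
    rw [Matrix.SpecialLinearGroup.coe_mul, ← Matrix.mulVec_mulVec, hvm, colL η hii, hgTm,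
      Matrix.add_mulVec, Matrix.one_mulVec, Matrix.vecMulVec_mulVec, op_smul_eq_smul]
    have : ((-(η i')⁻¹) • e i') ⬝ᵥ (e i + η i' • e i') = -1 := by
      simp [Pi.single_apply, hne, hη i']
    rw [this]
    simp
  have fullAll : ∀ (d : ℕ) (i : Fin (m + 3)), i.val = d → Full H (e i) := by
    intro d
    induction d with
    | zero =>
      intro i hi
      have : i = 0 := Fin.ext (by simp [hi])
      rw [this]; exact full0
    | succ d ih =>
      intro i hi
      have := i.isLt
      exact S6 ⟨d, by omega⟩ i (by simp [hi]) (ih ⟨d, by omega⟩ rfl)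
  refine le_antisymm le_top (fun A _ => ?_)
  refine Cfsg.Agent.Lib.Helper18.SL_transvection_induction (fun A => A ∈ H) ?_
    (fun _ _ => H.mul_mem) A
  intro i j hij a
  obtain ⟨g, hg, hgm⟩ := fullAll i.val i rfl (a • e j) (by simp [Pi.single_apply, Ne.symm hij])
  have : g = Matrix.SpecialLinearGroup.transvection hij a := by
    apply Subtype.ext
    show (g : Mn) = _
    rw [hgm]
    show _ = (1 : Mn) + Matrix.single i j a
    congr 1
    ext x y
    simp [Matrix.vecMulVec_apply, Matrix.single_apply, Pi.single_apply]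
    by_cases h1 : y = j
    · by_cases h2 : x = i
      · simp [h1, h2]
      · simp [h1, h2, Ne.symm h2]
    · simp [h1, Ne.symm h1]
  rw [← this]; exact hg

end gen

end Cfsg.Agent.H14.RankOne
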