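import Mathlib
import Cfsg.Agent.H14.RegUni

set_option autoImplicit false

namespace Cfsg.Agent.H14.RankOne

variable {F : Type*} [Field F]

theorem det_one_add_Nup (k : ℕ) : (1 + Nup k F).det = 1 := by
  rw [Matrix.det_of_upperTriangular]
  · apply Finset.prod_eq_one
    intro i _
    simp [Nup]
  · intro i j hij
    have hij' : j.val < i.val := hij
    have h1 : i ≠ j := fun h => by rw [h] at hij'; omega
    simp only [Matrix.add_apply, Matrix.one_apply_ne h1, Nup, Matrix.of_apply, zero_add]
    rw [if_neg (by omega)]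

theorem Nup_pow (n k : ℕ) :
    (Nup n F) ^ k = Matrix.of (fun i j : Fin n => if j.val = i.val + k then (1 : F) else 0) := by
  induction k with
  | zero =>
    ext i j
    simp [Matrix.one_apply, Fin.ext_iff, eq_comm]
  | succ k ih =>
    rw [pow_succ, ih]
    ext i j
    rw [Matrix.mul_apply]
    simp only [Matrix.of_apply, Nup]
    by_cases h : j.val = i.val + (k + 1)
    · have hj := j.isLt
      rw [Finset.sum_eq_single (⟨i.val + k, by omega⟩ : Fin n)]
      · simp [h]; omega
      · intro l _ hl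
        have : ¬ (l.val = i.val + k) := fun e => hl (Fin.ext e)
        simp [this]
      · intro h'; exact absurd (Finset.mem_univ _) h'
    · rw [if_neg h]
      apply Finset.sum_eq_zero
      intro l _
      by_cases h1 : l.val = i.val + k
      · have : ¬ (j.val = l.val + 1) := by omega
        simp [this]
      · simp [h1]

/-- reversal permutation matrix -/
def Rm (n : ℕ) (F : Type*) [Field F] : Matrix (Fin n) (Fin n) F :=
  Matrix.of fun i j => if j = Fin.rev i then 1 else 0

theorem Rm_mul_self (n : ℕ) : Rm n F * Rm n F = 1 := by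
  ext i j
  rw [Matrix.mul_apply, Finset.sum_eq_single (Fin.rev i)]
  · simp [Rm, Matrix.one_apply, eq_comm]
  · intro l _ hl
    simp [Rm, hl]
  · intro h'; exact absurd (Finset.mem_univ _) h'

theorem det_Rm_sq (n : ℕ) : (Rm n F).det * (Rm n F).det = 1 := by
  rw [← Matrix.det_mul, Rm_mul_self, Matrix.det_one]

variable {m : ℕ}

/-- diagonal correction -/
noncomputable def dd (m : ℕ) (F : Type*) [Field F] : Fin (m + 3) → F :=
  fun j => if j = 0 then (Rm (m + 3) F).det else 1

theorem dd_ne_zero (j : Fin (m + 3)) : dd m F j ≠ 0 := by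
  unfold dd
  split_ifs
  · exact left_ne_zero_of_mul_eq_one (det_Rm_sq _)
  · exact one_ne_zero

noncomputable def hM (m : ℕ) (F : Type*) [Field F] : Matrix (Fin (m + 3)) (Fin (m + 3)) F :=
  Rm (m + 3) F * Matrix.diagonal (dd m F)

theorem det_hM : (hM m F).det = 1 := by
  unfold hM
  rw [Matrix.det_mul, Matrix.det_diagonal]
  have : ∏ i, dd m F i = (Rm (m + 3) F).det := by
    unfold dd
    rw [Finset.prod_ite_eq' Finset.univ (0 : Fin (m + 3)) (fun _ => (Rm (m + 3) F).det)]
    simp
  rw [this, det_Rm_sq]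

theorem hM_apply (i j : Fin (m + 3)) : hM m F i j = if j = Fin.rev i then dd m F j else 0 := by
  unfold hM
  rw [Matrix.mul_diagonal]
  simp [Rm]

noncomputable def eta (m : ℕ) (F : Type*) [Field F] : Fin (m + 3) → F := fun i => dd m F (Fin.rev i)

theorem hM_Nup : hM m F * Nup (m + 3) F = Llow (eta m F) * hM m F := by
  ext i j
  rw [Matrix.mul_apply, Matrix.mul_apply, Finset.sum_eq_single (Fin.rev i),
    Finset.sum_eq_single (Fin.rev j)]
  · rw [hM_apply, hM_apply, if_pos rfl, if_pos (Fin.rev_rev j).symm]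
    simp only [Nup, Llow, Matrix.of_apply, eta, Fin.val_rev]
    have hi := i.isLt
    have hj := j.isLt
    by_cases h : j.val = m + 3 - (i.val + 1) + 1
    · rw [if_pos h, if_pos (by omega)]
      have hj0 : j ≠ 0 := by
        intro e0
        rw [e0] at h
        simp at h
      simp [dd, hj0]
    · rw [if_neg h, if_neg (by omega)]
      simp
  · intro l _ hl
    rw [hM_apply, if_neg (fun e => hl (by rw [e, Fin.rev_rev])), mul_zero]
  · intro h'; exact absurd (Finset.mem_univ _) h'
  · intro l _ hl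
    rw [hM_apply, if_neg hl, zero_mul]
  · intro h'; exact absurd (Finset.mem_univ _) h'

theorem single_eq {n : ℕ} (i j : Fin n) (a : F) :
    Matrix.single i j a = Matrix.vecMulVec (Pi.single i 1) (a • Pi.single j 1) := by
  ext x y
  simp [Matrix.vecMulVec_apply, Matrix.single_apply, Pi.single_apply]
  by_cases h1 : y = j
  · by_cases h2 : x = i
    · simp [h1, h2]
    · simp [h1, h2, Ne.symm h2]
  · simp [h1, Ne.symm h1]

local notation "SLn" => Matrix.SpecialLinearGroup (Fin (m + 3)) F
local notation "Mn" => Matrix (Fin (m + 3)) (Fin (m + 3)) F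

theorem main [Fintype F] (m : ℕ) :
    ∃ u g h : Matrix.SpecialLinearGroup (Fin (m + 3)) F,
      (IsNilpotent ((u : Matrix (Fin (m + 3)) (Fin (m + 3)) F) - 1) ∧
        ((u : Matrix (Fin (m + 3)) (Fin (m + 3)) F) - 1) ^ (m + 3 - 1) ≠ 0) ∧
      Subgroup.closure ({u, g * u * g⁻¹, h * u * h⁻¹} :
        Set (Matrix.SpecialLinearGroup (Fin (m + 3)) F)) = ⊤ := by
  classical
  obtain ⟨u, hum⟩ : ∃ u : Matrix.SpecialLinearGroup (Fin (m + 3)) F,
      (u : Matrix (Fin (m + 3)) (Fin (m + 3)) F) = 1 + Nup (m + 3) F :=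
    ⟨⟨_, det_one_add_Nup _⟩, rfl⟩
  obtain ⟨h, hhm⟩ : ∃ h : Matrix.SpecialLinearGroup (Fin (m + 3)) F,
      (h : Matrix (Fin (m + 3)) (Fin (m + 3)) F) = hM m F := ⟨⟨_, det_hM⟩, rfl⟩
  obtain ⟨ζ, hζ⟩ := IsCyclic.exists_generator (α := Fˣ)
  set η := eta m F with hη
  have hη0 : ∀ i, η i ≠ 0 := fun i => dd_ne_zero _
  set κ : F := η 1 * η 2 * η (Fin.last _) with hκ
  have hκ0 : κ ≠ 0 := mul_ne_zero (mul_ne_zero (hη0 _) (hη0 _)) (hη0 _)
  set c : F := (ζ : F) / κ with hc
  have hc0 : c ≠ 0 := div_ne_zero ζ.ne_zero hκ0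
  have h01 : (0 : Fin (m + 3)) ≠ 1 := by
    intro e; have := congrArg Fin.val e; simp at this
  have h02 : (0 : Fin (m + 3)) ≠ 2 := by
    intro e; have := congrArg Fin.val e; rw [Fin.val_two] at this; simp at this
  set g := Matrix.SpecialLinearGroup.transvection h01 c with hg
  refine ⟨u, g, h, ⟨?_, ?_⟩, ?_⟩
  · rw [hum, add_sub_cancel_left]
    refine ⟨m + 3, ?_⟩
    rw [Nup_pow]
    ext i j
    have := j.isLt
    simp only [Matrix.of_apply, Matrix.zero_apply]
    rw [if_neg (by omega)]
  · rw [hum, add_sub_cancel_left, Nup_pow]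
    intro h0
    have := congrFun (congrFun h0 0) (Fin.last _)
    simp at this
  · set H := Subgroup.closure ({u, g * u * g⁻¹, h * u * h⁻¹} :
      Set (Matrix.SpecialLinearGroup (Fin (m + 3)) F)) with hH
    have huH : u ∈ H := Subgroup.subset_closure (by simp)
    have hgH : g * u * g⁻¹ ∈ H := Subgroup.subset_closure (by simp)
    have hvH : h * u * h⁻¹ ∈ H := Subgroup.subset_closure (by simp)
    have hvm : ((h * u * h⁻¹ : Matrix.SpecialLinearGroup (Fin (m + 3)) F) :
        Matrix (Fin (m + 3)) (Fin (m + 3)) F) = 1 + Llow η := by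
      rw [Matrix.SpecialLinearGroup.coe_mul, Matrix.SpecialLinearGroup.coe_mul, hum, mul_add,
        mul_one, hhm, hM_Nup]
      have : hM m F + Llow (eta m F) * hM m F = (1 + Llow (eta m F)) * hM m F := by
        rw [add_mul, one_mul]
      rw [this, mul_assoc, ← hhm, coe_mul_inv, mul_one]
    refine gen H u (h * u * h⁻¹) huH hvH hum η hη0 hvm c ?_ ?_
    · refine ⟨u⁻¹ * (g * u * g⁻¹), H.mul_mem (H.inv_mem huH) hgH, ?_⟩
      have key : g * u = u * Matrix.SpecialLinearGroup.transvection h02 c * g := by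
        apply Subtype.ext
        show ((g * u : Matrix.SpecialLinearGroup (Fin (m + 3)) F) :
          Matrix (Fin (m + 3)) (Fin (m + 3)) F) =
          ((u * Matrix.SpecialLinearGroup.transvection h02 c * g :
            Matrix.SpecialLinearGroup (Fin (m + 3)) F) : Matrix (Fin (m + 3)) (Fin (m + 3)) F)
        rw [Matrix.SpecialLinearGroup.coe_mul, Matrix.SpecialLinearGroup.coe_mul,
          Matrix.SpecialLinearGroup.coe_mul, hg, Matrix.SpecialLinearGroup.transvection_coe,
          Matrix.SpecialLinearGroup.transvection_coe, single_eq, single_eq]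
        set U := (u : Matrix (Fin (m + 3)) (Fin (m + 3)) F) with hU
        have a1 : ∀ φ : Fin (m + 3) → F, U * Matrix.vecMulVec (Pi.single 0 1) φ =
            Matrix.vecMulVec (Pi.single 0 1) φ := by
          intro φ
          rw [Matrix.mul_vecMulVec, hum, colU0 rfl]
        have a2 : Matrix.vecMulVec (Pi.single 0 1) (c • Pi.single 1 1) * U =
            Matrix.vecMulVec (Pi.single (0 : Fin (m + 3)) 1) (c • Pi.single 1 1) +
              Matrix.vecMulVec (Pi.single 0 1) (c • Pi.single 2 1) := by
          rw [Matrix.vecMulVec_mul, Matrix.smul_vecMul, hum,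
            rowU (j := 1) (j' := 2) (by rw [Fin.val_two]; simp), smul_add, Matrix.vecMulVec_add]
        have a3 : Matrix.vecMulVec (Pi.single (0 : Fin (m + 3)) (1 : F)) (c • Pi.single (2 : Fin (m + 3)) (1 : F)) *
            Matrix.vecMulVec (Pi.single (0 : Fin (m + 3)) (1 : F)) (c • Pi.single (1 : Fin (m + 3)) (1 : F)) =
            (0 : Matrix (Fin (m + 3)) (Fin (m + 3)) F) := by
          rw [Matrix.vecMulVec_mul_vecMulVec]
          have : (c • (Pi.single 2 1 : Fin (m + 3) → F)) ⬝ᵥ Pi.single 0 1 = 0 := by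
            simp [Pi.single_apply, h02]
          rw [this, zero_smul]
          ext i j; simp [Matrix.vecMulVec_apply]
        simp only [mul_add, add_mul, mul_one, one_mul]
        rw [a2, a1, a1, a3, add_zero]
        abel
      have e1 : u⁻¹ * (g * u * g⁻¹) = Matrix.SpecialLinearGroup.transvection h02 c := by
        rw [key]; group
      rw [e1, Matrix.SpecialLinearGroup.transvection_coe, single_eq]
    · intro a ha
      have hz : c * (η 1 * η 2) * η (Fin.last _) = (ζ : F) := by
        have : c * (η 1 * η 2) * η (Fin.last _) = c * κ := by rw [hκ]; ring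
        rw [this, hc, div_mul_cancel₀ _ hκ0]
      rw [hz]
      obtain ⟨k, hk⟩ := (mem_powers_iff_mem_zpowers).mpr (hζ (Units.mk0 (a / c) (div_ne_zero ha hc0)))
      refine ⟨k, ?_⟩
      have hk' : (ζ : F) ^ k = a / c := by
        have := congrArg (fun x : Fˣ => (x : F)) hk
        simpa using this
      rw [hk']; field_simp

end Cfsg.Agent.H14.RankOne
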