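import Mathlib
import Cfsg.Agent.H14.PSL2Class

set_option autoImplicit false

/-! `SL₂(2^t) = A B A`. -/

namespace Cfsg.Agent.H14

open Matrix Finset

variable {F : Type*} [Field F]

local notation "SL2" => Matrix.SpecialLinearGroup (Fin 2) F
local notation "PSL2" => Matrix.ProjectiveSpecialLinearGroup (Fin 2) F
local notation "M2" => Matrix (Fin 2) (Fin 2) F
local notation "q" => Fintype.card F

/-- the unipotent radical as a homomorphism -/
def uHom : Multiplicative F →* SL2 :=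
  MonoidHom.mk' (fun c => bm 1 (Multiplicative.toAdd c)) (by
    intro a b
    rw [bm_mul]
    congr 1
    · simp
    · simp [add_comm])

theorem uHom_injective : Function.Injective (uHom : Multiplicative F →* SL2) := by
  intro a b h
  have := congrArg (fun x : SL2 => x.1 0 1) h
  simpa [uHom] using this

theorem mem_range_uHom (g : SL2) : g ∈ (uHom : Multiplicative F →* SL2).range ↔ ∃ c : F, g = bm 1 c := by
  constructor
  · rintro ⟨c, rfl⟩
    exact ⟨Multiplicative.toAdd c, rfl⟩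
  · rintro ⟨c, rfl⟩
    exact ⟨Multiplicative.ofAdd c, rfl⟩

variable [Fintype F]

/-- solving a linear condition inside the non-split torus (characteristic two) -/
theorem exists_torus_linear (hch : ringChar F = 2) {x₀ : SL2} (h0 : NoEig x₀) (α β : F) :
    ∃ (a : SL2) (c d : F), a.1 = lin x₀ c d ∧ c * α + d * β = 0 := by
  obtain ⟨c₀, d₀, hne, hlin⟩ : ∃ c₀ d₀ : F, ¬ (c₀ = 0 ∧ d₀ = 0) ∧ c₀ * α + d₀ * β = 0 := by
    by_cases hα : α = 0
    · exact ⟨1, 0, by simp, by simp [hα]⟩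
    · exact ⟨β, -α, by simp [hα], by ring⟩
  have hN := h0.form_ne_zero c₀ d₀ hne
  obtain ⟨l, hl⟩ := FiniteField.isSquare_of_char_two hch (c₀ ^ 2 + c₀ * d₀ * x₀.1.trace + d₀ ^ 2)⁻¹
  refine ⟨⟨lin x₀ (l * c₀) (l * d₀), ?_⟩, l * c₀, l * d₀, rfl, by linear_combination l * hlin⟩
  rw [det_lin]
  have : (l * c₀) ^ 2 + l * c₀ * (l * d₀) * x₀.1.trace + (l * d₀) ^ 2 =
      (l * l) * (c₀ ^ 2 + c₀ * d₀ * x₀.1.trace + d₀ ^ 2) := by ring
  rw [this, ← hl, inv_mul_cancel₀ hN]

theorem lin_mem_NST {C : Subgroup SL2} (h : NST C) {x₀ : SL2} (hx : x₀ ∈ C) (h0 : NoEig x₀) {a : SL2} {c d : F}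
    (ha : a.1 = lin x₀ c d) : a ∈ C := by
  rw [← h.centralizer_eq hx h0.not_isScal, Subgroup.mem_centralizer_singleton_iff]
  apply Subtype.ext
  simp only [Matrix.SpecialLinearGroup.coe_mul]
  rw [ha, ← lin_zero_one x₀, lin_comm]

theorem aba_sl2 (hch : ringChar F = 2) {C : Subgroup SL2} (h : NST C) (g : SL2) :
    ∃ a ∈ C, ∃ c : F, ∃ a' ∈ C, g = a * bm 1 c * a' := by
  have h20 : (2 : F) = 0 := by
    have := ringChar.Nat.cast_ringChar (R := F)
    rw [hch] at this
    exact_mod_cast this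
  have hm1 : (-1 : Fˣ) = 1 := by
    apply Units.ext
    simp only [Units.val_neg, Units.val_one]
    linear_combination -h20
  obtain ⟨x₀, h0, -, hz⟩ := h.exists_gen
  have hx₀ : x₀ ∈ C := by rw [hz]; exact Subgroup.mem_zpowers x₀
  -- step 1: `g * a` has trace zero
  obtain ⟨a, c, d, ha, hlin⟩ := exists_torus_linear hch h0 g.1.trace (g.1 * x₀.1).trace
  have haC := lin_mem_NST h hx₀ h0 ha
  set s := g * a with hs
  have hst : s.1.trace = 0 := by
    rw [hs, Matrix.SpecialLinearGroup.coe_mul, ha]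
    simp only [lin, mul_add, mul_smul_comm, mul_one, Matrix.trace_add, Matrix.trace_smul, smul_eq_mul]
    exact hlin
  -- step 2: `s` is conjugate to an element of `U`
  have hne : ¬ NoEig s := by
    intro hn
    apply hn.trace_sq_ne
    rw [hst]
    linear_combination (-2 : F) * h20
  obtain ⟨e, c', hc⟩ := exists_isConj_bm s hne
  have he : e = 1 := by
    have he2 : e ^ 2 = 1 := by
      by_contra he2
      have := (sq_ne_one_iff_trace e).mp he2
      apply this
      have e1 : (e : F) + ((e⁻¹ : Fˣ) : F) = 0 := by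
        rw [← hst, sl2_trace_eq_of_isConj hc]
        simp [Matrix.trace_fin_two]
      rw [e1]
      linear_combination (-2 : F) * h20
    rcases units_sq_eq_one e he2 with h | h
    · exact h
    · rw [h, hm1]
  subst he
  obtain ⟨k, hk⟩ := isConj_iff.mp hc.symm
  -- `k = a₁⁻¹ * b` with `b` in the Borel subgroup
  obtain ⟨a₁, c₁, d₁, ha₁, hlin₁⟩ := exists_torus_linear hch h0 (k.1 1 0) ((x₀.1 * k.1) 1 0)
  have ha₁C := lin_mem_NST h hx₀ h0 ha₁
  have hb10 : (a₁ * k).1 1 0 = 0 := by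
    rw [Matrix.SpecialLinearGroup.coe_mul, ha₁]
    simp only [lin, add_mul, smul_mul_assoc, one_mul, Matrix.add_apply, Matrix.smul_apply, smul_eq_mul]
    exact hlin₁
  have hb := eq_bm (a₁ * k) hb10
  set f := diagUnit (a₁ * k) hb10
  set x := (a₁ * k).1 0 1
  have hconj : bm f x * bm 1 c' * (bm f x)⁻¹ = bm 1 (c' * (f : F) ^ 2) := by
    apply mul_inv_eq_iff_eq_mul.mpr
    rw [bm_mul, bm_mul]
    congr 1
    · simp
    · simp
      field_simp
      ring
  refine ⟨a₁⁻¹, inv_mem ha₁C, c' * (f : F) ^ 2, a₁ * a⁻¹, mul_mem ha₁C (inv_mem haC), ?_⟩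
  rw [← hconj, ← hb]
  have : g = s * a⁻¹ := by rw [hs]; group
  rw [this, ← hk]
  group

end Cfsg.Agent.H14
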