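import Mathlib
import Cfsg.Agent.Lib.Helper18.Herm5
import Cfsg.Agent.S0255

/-! # `PSL₂(7) ≤ PSU₃(3)` -/

set_option autoImplicit false
set_option linter.unusedSimpArgs false
set_option linter.unusedVariables false

namespace Cfsg.Agent.H14

open Matrix

variable {F : Type*} [Field F]

def uA (j : F) : Matrix (Fin 3) (Fin 3) F := !![0, 0, 1; 0, -1, 0; 1, 0, 0]
def uB (j : F) : Matrix (Fin 3) (Fin 3) F := !![0, 1 + j, 1 + j; 1 - j, -1, 1; -1 + j, -1, 1]
def uC (j : F) : Matrix (Fin 3) (Fin 3) F := !![-1 + j, -1, 1; -1 + j, 1, -1; 0, 1 + j, 1 + j]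
def uC2 (j : F) : Matrix (Fin 3) (Fin 3) F := !![1, 1, 1 - j; -1 - j, 1 + j, 0; 1, 1, -1 + j]
def uC4 (j : F) : Matrix (Fin 3) (Fin 3) F := !![1 + j, 0, 1 + j; -1, -1 + j, 1; -1, 1 - j, 1]
def uC6 (j : F) : Matrix (Fin 3) (Fin 3) F := !![-1 - j, -1 - j, 0; -1, 1, 1 - j; 1, -1, 1 - j]
def uD (j : F) : Matrix (Fin 3) (Fin 3) F := !![1 + j, -1 - j, 0; -1, -1, 1 - j; 1, 1, 1 - j]
def uD2 (j : F) : Matrix (Fin 3) (Fin 3) F := !![1, 1 - j, 1; 1 + j, 0, -1 - j; 1, -1 + j, 1]
def uB2 (j : F) : Matrix (Fin 3) (Fin 3) F := !![0, 1 + j, -1 - j; 1 - j, -1, -1; 1 - j, 1, 1]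

section rels
variable (j : F) (hj : j ^ 2 = -1) (h3 : (3 : F) = 0)
include hj h3

theorem uA_mul_uA : uA j * uA j = 1 := by
  ext a b
  fin_cases a <;> fin_cases b <;>
    simp [uA, Matrix.mul_apply, Fin.sum_univ_three, Matrix.one_apply] <;> grind
theorem uB_mul_uB : uB j * uB j = uB2 j := by
  ext a b
  fin_cases a <;> fin_cases b <;>
    simp [uB, uB2, Matrix.mul_apply, Fin.sum_univ_three, Matrix.one_apply] <;> grind
theorem uB2_mul_uB : uB2 j * uB j = 1 := by
  ext a b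
  fin_cases a <;> fin_cases b <;>
    simp [uB, uB2, Matrix.mul_apply, Fin.sum_univ_three, Matrix.one_apply] <;> grind
theorem uA_mul_uB : uA j * uB j = uC j := by
  ext a b
  fin_cases a <;> fin_cases b <;>
    simp [uA, uB, uC, Matrix.mul_apply, Fin.sum_univ_three, Matrix.one_apply] <;> grind
theorem uC_mul_uC : uC j * uC j = uC2 j := by
  ext a b
  fin_cases a <;> fin_cases b <;>
    simp [uC, uC2, Matrix.mul_apply, Fin.sum_univ_three, Matrix.one_apply] <;> grind
theorem uC2_mul_uC2 : uC2 j * uC2 j = uC4 j := by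
  ext a b
  fin_cases a <;> fin_cases b <;>
    simp [uC2, uC4, Matrix.mul_apply, Fin.sum_univ_three, Matrix.one_apply] <;> grind
theorem uC4_mul_uC2 : uC4 j * uC2 j = uC6 j := by
  ext a b
  fin_cases a <;> fin_cases b <;>
    simp [uC2, uC4, uC6, Matrix.mul_apply, Fin.sum_univ_three, Matrix.one_apply] <;> grind
theorem uC6_mul_uC : uC6 j * uC j = 1 := by
  ext a b
  fin_cases a <;> fin_cases b <;>
    simp [uC, uC6, Matrix.mul_apply, Fin.sum_univ_three, Matrix.one_apply] <;> grind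
theorem uC2_mul_uB : uC2 j * uB j = uD j := by
  ext a b
  fin_cases a <;> fin_cases b <;>
    simp [uB, uC2, uD, Matrix.mul_apply, Fin.sum_univ_three, Matrix.one_apply] <;> grind
theorem uD_mul_uD : uD j * uD j = uD2 j := by
  ext a b
  fin_cases a <;> fin_cases b <;>
    simp [uD, uD2, Matrix.mul_apply, Fin.sum_univ_three, Matrix.one_apply] <;> grind
theorem uD2_mul_uD2 : uD2 j * uD2 j = 1 := by
  ext a b
  fin_cases a <;> fin_cases b <;>
    simp [uD2, Matrix.mul_apply, Fin.sum_univ_three, Matrix.one_apply] <;> grind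
theorem det_uA : (uA j).det = 1 := by
  simp [uA, Matrix.det_fin_three] <;> grind
theorem herm_uA : (uA j)ᵀ * (uA j).map (· ^ 3) = 1 := by
  ext a b
  fin_cases a <;> fin_cases b <;>
    simp [uA, Matrix.mul_apply, Fin.sum_univ_three, Matrix.one_apply] <;> grind
theorem det_uB : (uB j).det = 1 := by
  simp [uB, Matrix.det_fin_three] <;> grind
theorem herm_uB : (uB j)ᵀ * (uB j).map (· ^ 3) = 1 := by
  ext a b
  fin_cases a <;> fin_cases b <;>
    simp [uB, Matrix.mul_apply, Fin.sum_univ_three, Matrix.one_apply] <;> grind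

end rels

/-- the presented `(2,3,7;4)` group is `PSL₂(7)` -/
theorem pres168_equiv_psl27 {K : Type*} [Field K] [Fintype K] (hK : Fintype.card K = 7) :
    Nonempty (PresentedGroup Cfsg.Agent.Lib.Helper18.rels168 ≃*
      Matrix.ProjectiveSpecialLinearGroup (Fin 2) K) := by
  have hcF : CharP K 7 := Cfsg.Agent.Lib.Helper18.charP_of_card_eq_prime_pow 7 1 (by norm_num) (by simpa using hK)
  have hG1s : IsSimpleGroup (Matrix.ProjectiveSpecialLinearGroup (Fin 2) K) :=
    Matrix.ProjectiveSpecialLinearGroup.rank_two_simple (by rw [Nat.card_eq_fintype_card, hK]; norm_num)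
  have hG1c : Nat.card (Matrix.ProjectiveSpecialLinearGroup (Fin 2) K) = 168 := by
    have h1 := Cfsg.Agent.Lib.Helper18.card_PSL2 (F := K)
    rw [hK] at h1
    norm_num at h1
    omega
  let f1 : ZMod 7 →+* K := ZMod.castHom (dvd_refl 7) K
  let π1 : Matrix.SpecialLinearGroup (Fin 2) (ZMod 7) →* Matrix.ProjectiveSpecialLinearGroup (Fin 2) K :=
    (QuotientGroup.mk' _).comp (Matrix.SpecialLinearGroup.map f1)
  have hneg : π1 (-1) = 1 := by
    change (QuotientGroup.mk (Matrix.SpecialLinearGroup.map f1 (-1)) : Matrix.ProjectiveSpecialLinearGroup (Fin 2) K) = 1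
    rw [QuotientGroup.eq_one_iff, Matrix.SpecialLinearGroup.mem_center_iff]
    refine ⟨-1, by simp, ?_⟩
    ext a b; fin_cases a <;> fin_cases b <;> simp
  apply Cfsg.Agent.Lib.Helper18.simple168_equiv hG1c (π1 Cfsg.Agent.S0255.A7) (π1 Cfsg.Agent.S0255.B7)
  · rw [← map_pow, Cfsg.Agent.S0255.A7_rel, hneg]
  · rw [← map_pow, Cfsg.Agent.S0255.B7_rel, map_one]
  · rw [← map_mul, ← map_pow, Cfsg.Agent.S0255.AB7_rel, hneg]
  · simp only [← map_mul, ← map_pow]
    rcases Cfsg.Agent.S0255.C7_rel with h | h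
    · rw [h, map_one]
    · rw [h, hneg]
  · apply Cfsg.Agent.Lib.Helper18.mk_ne_one_of_offdiag _ 0 1 (by decide)
    exact Cfsg.Agent.S0255.map_entry_ne f1 Cfsg.Agent.S0255.A7 0 1 (by decide +kernel)
  · apply Cfsg.Agent.Lib.Helper18.mk_ne_one_of_offdiag _ 0 1 (by decide)
    exact Cfsg.Agent.S0255.map_entry_ne f1 Cfsg.Agent.S0255.B7 0 1 (by decide +kernel)
  · rw [← map_mul]
    apply Cfsg.Agent.Lib.Helper18.mk_ne_one_of_offdiag _ 0 1 (by decide)
    exact Cfsg.Agent.S0255.map_entry_ne f1 (Cfsg.Agent.S0255.A7 * Cfsg.Agent.S0255.B7) 0 1 (by decide +kernel)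

/-- any group with a nontrivial `(2,3,7;4)`-pair contains `PSL₂(7)` -/
theorem exists_psl27_subgroup {G : Type*} [Group G] (a b : G) (ha : a ^ 2 = 1) (hb : b ^ 3 = 1)
    (hab : (a * b) ^ 7 = 1) (hc : (a * b * a * b * b) ^ 4 = 1) (ha1 : a ≠ 1)
    {K : Type*} [Field K] [Fintype K] (hK : Fintype.card K = 7) :
    ∃ H : Subgroup G, Nonempty (H ≃* Matrix.ProjectiveSpecialLinearGroup (Fin 2) K) := by
  obtain ⟨e⟩ := pres168_equiv_psl27 hK
  have hG1s : IsSimpleGroup (Matrix.ProjectiveSpecialLinearGroup (Fin 2) K) :=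
    Matrix.ProjectiveSpecialLinearGroup.rank_two_simple (by rw [Nat.card_eq_fintype_card, hK]; norm_num)
  have hPs : IsSimpleGroup (PresentedGroup Cfsg.Agent.Lib.Helper18.rels168) :=
    e.isSimpleGroup
  have hlift : ∀ r ∈ Cfsg.Agent.Lib.Helper18.rels168, FreeGroup.lift ![a, b] r = 1 := by
    intro r hr
    simp only [Cfsg.Agent.Lib.Helper18.rels168, Set.mem_insert_iff, Set.mem_singleton_iff] at hr
    rcases hr with rfl | rfl | rfl | rfl <;> simp [ha, hb, hab, hc]
  let φ : PresentedGroup Cfsg.Agent.Lib.Helper18.rels168 →* G := PresentedGroup.toGroup hlift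
  have hker : φ.ker = ⊥ := by
    rcases hPs.eq_bot_or_eq_top_of_normal φ.ker inferInstance with h | h
    · exact h
    · exfalso
      apply ha1
      have h1 : (PresentedGroup.of 0 : PresentedGroup Cfsg.Agent.Lib.Helper18.rels168) ∈ φ.ker := by
        rw [h]; trivial
      have h2 : φ (PresentedGroup.of 0) = 1 := h1
      simpa [φ] using h2
  have hinj : Function.Injective φ := (MonoidHom.ker_eq_bot_iff φ).mp hker
  exact ⟨φ.range, ⟨(MonoidHom.ofInjective hinj).symm.trans e⟩⟩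

end Cfsg.Agent.H14
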